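import Cfsg.Agent.H93.RC.Defs
import Cfsg.Agent.H106.RC.MRule
import Cfsg.Agent.H106.RC.Descent

/-!
# S3510, row F, box FA1 (descent of the form along the nonlinear members of the family) (helper188)
-/

set_option autoImplicit false
open Cfsg

namespace Cfsg.Agent.H188.RC

open QuadraticMap MulAction
open Cfsg.Agent.LieClassical.OrthCore Cfsg.Agent.LieClassical.OrthTrans
open Cfsg.Agent.LieClassical.OrthSimple Cfsg.Agent.ClassicalGeometry.OrthSemi
open Cfsg.Agent.ClassicalGeometry.OrthAut1 Cfsg.Agent.H106.RC Cfsg.Agent.H93.RC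

/-- the semilinear embedding of the coordinate space over a subfield -/
noncomputable def semJ {F₀ F V : Type*} [Field F₀] [Field F] [AddCommGroup V] [Module F V] {n : ℕ}
    (φ : F₀ →+* F) (b : Module.Basis (Fin n) F V) (v : Fin n → F₀) : V := ∑ i, φ (v i) • b i

section semJ

variable {F₀ F V : Type*} [Field F₀] [Field F] [AddCommGroup V] [Module F V] {n : ℕ}
  {φ : F₀ →+* F} {b : Module.Basis (Fin n) F V}

theorem semJ_add (v w : Fin n → F₀) : semJ φ b (v + w) = semJ φ b v + semJ φ b w := by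
  simp only [semJ, Pi.add_apply, map_add, add_smul, Finset.sum_add_distrib]

theorem semJ_smul (a : F₀) (v : Fin n → F₀) : semJ φ b (a • v) = φ a • semJ φ b v := by
  simp only [semJ, Pi.smul_apply, smul_eq_mul, map_mul, Finset.smul_sum, smul_smul]

theorem semJ_zero : semJ φ b 0 = 0 := by simp [semJ]

theorem semJ_single (i : Fin n) : semJ φ b (Pi.single i 1) = b i := by
  classical
  rw [semJ, Finset.sum_eq_single i]
  · rw [Pi.single_eq_same, map_one, one_smul]
  · intro j _ hj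
    rw [Pi.single_eq_of_ne hj, map_zero, zero_smul]
  · intro h
    exact (h (Finset.mem_univ i)).elim

theorem semJ_injective : Function.Injective (semJ φ b) := by
  intro v w h
  funext i
  have h1 := congrArg (fun z => b.repr z i) h
  simp only [semJ, map_sum, map_smul, Finsupp.coe_finsetSum, Finset.sum_apply, Finsupp.smul_apply,
    Module.Basis.repr_self, smul_eq_mul] at h1
  have h2 : ∀ u : Fin n → F₀, ∑ j, φ (u j) * (Finsupp.single j (1 : F)) i = φ (u i) := by
    intro u
    rw [Finset.sum_eq_single i]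
    · rw [Finsupp.single_eq_same, mul_one]
    · intro j _ hj
      rw [Finsupp.single_eq_of_ne (by tauto), mul_zero]
    · intro h
      exact (h (Finset.mem_univ i)).elim
  rw [h2, h2] at h1
  exact φ.injective h1

end semJ

/-! ### Field automorphisms of the elements of `G` -/

section fld

variable {F V : Type*} [Field F] [AddCommGroup V] [Module F V] {Q : QuadraticForm F V}
  {G : Type*} [Group G] {ρ : ↥(E Q) →* G}

/-- some lift of `z` is `τ`-semilinear -/
def Fld (ρ : ↥(E Q) →* G) (z : G) (τ : F ≃+* F) : Prop :=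
  ∃ (L : Gam Q) (c : F), Lf ρ z L ∧ IsSS Q τ c L.1

theorem Fld.mul {z z' : G} {σ τ : F ≃+* F} (h : Fld ρ z σ) (h' : Fld ρ z' τ) : Fld ρ (z * z') (σ * τ) := by
  obtain ⟨L, c, hL, hc⟩ := h
  obtain ⟨L', c', hL', hc'⟩ := h'
  exact ⟨L * L', c * σ c', hL.mul hL', hc.mul hc'⟩

theorem Fld.one : Fld ρ 1 (1 : F ≃+* F) :=
  ⟨1, 1, Lf.one, one_ne_zero, fun _ _ => rfl, fun _ _ => rfl, fun _ => by rw [one_mul]; rfl⟩

theorem Fld.pow {z : G} {σ : F ≃+* F} (h : Fld ρ z σ) (n : ℕ) : Fld ρ (z ^ n) (σ ^ n) := by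
  induction n with
  | zero => rw [pow_zero, pow_zero]; exact Fld.one
  | succ n ih => rw [pow_succ, pow_succ]; exact ih.mul h

/-- two lifts of the same element -/
theorem lf_unique (hG : Good Q) {N : Subgroup G} (hρ : Rep Q N ρ) {z : G} {L L' : Gam Q}
    (h : Lf ρ z L) (h' : Lf ρ z L') : ∃ a : F, a ≠ 0 ∧ ∀ v, L.1 v = a • L'.1 v := by
  have h1 : Lf ρ (z * z⁻¹) (L * L'⁻¹) := h.mul h'.inv
  rw [mul_inv_cancel] at h1
  obtain ⟨a, ha, h2⟩ := (h1.scal_iff hG hρ).2 fun t => by simp
  refine ⟨a, ha, fun v => ?_⟩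
  have h3 := h2 (L'.1 v)
  have h4 : (L * L'⁻¹).1 (L'.1 v) = L.1 v := by
    show L.1 (L'.1⁻¹ (L'.1 v)) = _
    rw [inv_apply]
  rw [h4] at h3
  exact h3

theorem Fld.uniq (hG : Good Q) {N : Subgroup G} (hρ : Rep Q N ρ) {z : G} {σ τ : F ≃+* F}
    (h : Fld ρ z σ) (h' : Fld ρ z τ) : σ = τ := by
  obtain ⟨L, c, hL, hc⟩ := h
  obtain ⟨L', c', hL', hc'⟩ := h'
  obtain ⟨a, ha, h1⟩ := lf_unique hG hρ hL hL'
  obtain ⟨x, y, hxy⟩ := hG.exists_hyp
  ext t
  have h2 := h1 (t • x)
  rw [hc.smul, hc'.smul, h1, smul_smul, smul_smul] at h2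
  have h3 : L'.1 x ≠ 0 := by
    intro h0
    rw [← hc'.map_zero] at h0
    exact hxy.left_ne (L'.1.injective h0)
  have h4 : (σ t * a - a * τ t) • L'.1 x = 0 := by rw [sub_smul, h2, sub_self]
  rcases smul_eq_zero.mp h4 with h5 | h5
  · have h6 : (σ t - τ t) * a = 0 := by linear_combination h5
    rcases mul_eq_zero.mp h6 with h7 | h7
    · exact sub_eq_zero.mp h7
    · exact (ha h7).elim
  · exact (h3 h5).elim

theorem Fld.exists_of_closure {ι : Type*} {x : ι → G} (h : ∀ i, ∃ τ, Fld ρ (x i) τ) {z : G}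
    (hz : z ∈ Subgroup.closure (Set.range x)) : ∃ τ, Fld ρ z τ := by
  induction hz using Subgroup.closure_induction with
  | mem z hz =>
    obtain ⟨i, rfl⟩ := hz
    exact h i
  | one => exact ⟨1, Fld.one⟩
  | mul a b _ _ ha hb =>
    obtain ⟨σ, hσ⟩ := ha
    obtain ⟨τ, hτ⟩ := hb
    exact ⟨_, hσ.mul hτ⟩
  | inv a _ ha =>
    obtain ⟨σ, L, c, hL, hc⟩ := ha
    exact ⟨σ.symm, L⁻¹, _, hL.inv, hc.inv⟩

theorem isLin_of_ss {M : Gam Q} {c : F} (h : IsSS Q (1 : F ≃+* F) c M.1) : IsLin M := fun a v => h.smul a v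

theorem ss_one_of_isLin (hG : Good Q) {M : Gam Q} (h : IsLin M) {σ : F ≃+* F} {c : F} (hM : IsSS Q σ c M.1) :
    σ = 1 := by
  obtain ⟨x, y, hxy⟩ := hG.exists_hyp
  have h3 : M.1 x ≠ 0 := by
    intro h0
    rw [← hM.map_zero] at h0
    exact hxy.left_ne (M.1.injective h0)
  ext t
  have h1 := h t x
  rw [hM.smul] at h1
  have h4 : (σ t - t) • M.1 x = 0 := by rw [sub_smul, h1, sub_self]
  rcases smul_eq_zero.mp h4 with h5 | h5
  · exact sub_eq_zero.mp h5
  · exact (h3 h5).elim

end fld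

/-! ### Group theory -/

theorem closure_comm {G ι : Type*} [Group G] {x : ι → G} (hc : ∀ i j, x i * x j = x j * x i) {a b : G}
    (ha : a ∈ Subgroup.closure (Set.range x)) (hb : b ∈ Subgroup.closure (Set.range x)) : a * b = b * a := by
  have h1 : Subgroup.closure (Set.range x) ≤ Subgroup.centralizer (Set.range x) := by
    rw [Subgroup.closure_le]
    rintro _ ⟨i, rfl⟩
    rw [SetLike.mem_coe, Subgroup.mem_centralizer_iff]
    rintro _ ⟨j, rfl⟩
    exact hc j i
  have h2 : Subgroup.closure (Set.range x) ≤ Subgroup.centralizer (Subgroup.closure (Set.range x) : Set G) := by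
    conv_lhs => rw [Subgroup.closure]
    refine sInf_le ?_
    rintro _ ⟨i, rfl⟩
    rw [SetLike.mem_coe, Subgroup.mem_centralizer_iff]
    intro c hc'
    exact (Subgroup.mem_centralizer_iff.mp (h1 hc') (x i) ⟨i, rfl⟩).symm
  exact (Subgroup.mem_centralizer_iff.mp (h2 ha) b hb).symm

theorem pow_prod_eq_one {G ι : Type*} [Group G] [Fintype ι] {x : ι → G} {r : ι → ℕ}
    (hx : ∀ i, x i ^ r i = 1) (hc : ∀ i j, x i * x j = x j * x i) {z : G}
    (hz : z ∈ Subgroup.closure (Set.range x)) : z ^ (∏ i, r i) = 1 := by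
  induction hz using Subgroup.closure_induction with
  | mem z hz =>
    obtain ⟨i, rfl⟩ := hz
    obtain ⟨k, hk⟩ := Finset.dvd_prod_of_mem r (Finset.mem_univ i)
    rw [hk, pow_mul, hx, one_pow]
  | one => exact one_pow _
  | mul a b ha hb iha ihb =>
    have h1 : Commute a b := closure_comm hc ha hb
    rw [h1.mul_pow, iha, ihb, one_mul]
  | inv a _ ih => rw [inv_pow, ih, inv_one]

/-- a generator of the subgroup generated by elements with nontrivial field automorphisms -/
theorem exists_gen_fld {F V : Type*} [Field F] [AddCommGroup V] [Module F V] {Q : QuadraticForm F V}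
    {G : Type*} [Group G] {ρ : ↥(E Q) →* G} (hG : Good Q) {N : Subgroup G} (hρ : Rep Q N ρ)
    {ι : Type*} [Finite ι] {x : ι → G} {r : ι → ℕ}
    (hr : ∀ i, (r i).Prime) (hinj : Function.Injective r) (hx : ∀ i, x i ^ r i = 1)
    (hc : ∀ i j, x i * x j = x j * x i) (hf : ∀ i, ∃ τ : F ≃+* F, τ ≠ 1 ∧ Fld ρ (x i) τ) :
    ∃ (g : G) (τ : F ≃+* F), g ∈ Subgroup.closure (Set.range x) ∧ (∀ i, ∃ k : ℕ, x i = g ^ k) ∧ Fld ρ g τ ∧
      g ^ orderOf τ = 1 := by
  classical
  let _ : Fintype ι := Fintype.ofFinite ι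
  obtain ⟨g, hgc, hg⟩ := exists_gen x r hr hinj hx hc
  obtain ⟨τ, hτ⟩ := Fld.exists_of_closure (fun i => (hf i).imp fun _ h => h.2) hgc
  have hgR := pow_prod_eq_one hx hc hgc
  have hRpos : 0 < ∏ i, r i := Finset.prod_pos fun i _ => (hr i).pos
  have hfo : IsOfFinOrder g := isOfFinOrder_iff_pow_eq_one.mpr ⟨_, hRpos, hgR⟩
  have hk : ∀ i, ∃ k : ℕ, x i = g ^ k := by
    intro i
    obtain ⟨k, hk⟩ := (hfo.mem_powers_iff_mem_zpowers).mpr (hg i)
    exact ⟨k, hk.symm⟩
  refine ⟨g, τ, hgc, hk, hτ, ?_⟩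
  have hdvd : ∀ i, r i ∣ orderOf τ := by
    intro i
    obtain ⟨k, hk⟩ := hk i
    obtain ⟨σ, hσ1, hσ⟩ := hf i
    have h1 : Fld ρ (x i) (τ ^ k) := by
      rw [hk]; exact hτ.pow k
    have h2 : τ ^ k ≠ 1 := by rwa [h1.uniq hG hρ hσ]
    have h3 : (τ ^ k) ^ r i = 1 := by
      have h4 := h1.pow (r i)
      rw [hx i] at h4
      exact h4.uniq hG hρ Fld.one
    have h5 : orderOf (τ ^ k) = r i := orderOf_eq_prime h3 h2 (hp := ⟨hr i⟩)
    rw [← h5]
    exact orderOf_pow_dvd k
  have hR : (∏ i, r i) ∣ orderOf τ := by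
    apply Finset.prod_dvd_of_isRelPrime
    · intro i _ j _ hij
      rw [Function.onFun, ← Nat.coprime_iff_isRelPrime]
      exact (Nat.coprime_primes (hr i) (hr j)).mpr fun h => hij (hinj h)
    · intro i _
      exact hdvd i
  obtain ⟨k, hk⟩ := hR
  rw [hk, pow_mul, hgR, one_pow]

/-! ### Descent of the form -/

section form

variable {F V : Type*} [Field F] [AddCommGroup V] [Module F V] {Q : QuadraticForm F V} {n : ℕ}

theorem polar_eq_zero_of_basis (b : Module.Basis (Fin n) F V) (h : ∀ i j, polar Q (b i) (b j) = 0) (x y : V) :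
    polar Q x y = 0 := by
  have h1 : polarBilin Q = 0 := by
    apply b.ext
    intro i
    apply b.ext
    intro j
    exact h i j
  rw [← polarBilin_apply_apply, h1]
  rfl

/-- the form over the fixed field of `τ`, if `τ (Q v) = μ Q v` on the `K`-span of the basis -/
theorem exists_form (hG : Good Q) {τ : F ≃+* F} {K : Subfield F} (hK : ∀ t, t ∈ K ↔ τ t = t)
    (b : Module.Basis (Fin n) F V) {μ : F} (hμ : μ ≠ 0)
    (hform : ∀ v : Fin n → K, τ (Q (semJ K.subtype b v)) = μ * Q (semJ K.subtype b v)) :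
    ∃ (Q₀ : QuadraticForm K (Fin n → K)) (d : F), d ≠ 0 ∧
      ∀ v, Q (semJ K.subtype b v) = d * K.subtype (Q₀ v) := by
  obtain ⟨v₀, hv₀⟩ : ∃ v₀ : Fin n → K, Q (semJ K.subtype b v₀) ≠ 0 := by
    by_contra hno
    push Not at hno
    obtain ⟨x, y, hxy⟩ := hG.exists_hyp
    have h1 := hxy.pair
    rw [polar_eq_zero_of_basis b (fun i j => ?_)] at h1
    · exact zero_ne_one h1
    · have h2 := hno (Pi.single i 1 + Pi.single j 1)
      have h3 := hno (Pi.single i 1)
      have h4 := hno (Pi.single j 1)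
      rw [semJ_add, semJ_single, semJ_single] at h2
      rw [semJ_single] at h3 h4
      rw [polar, h2, h3, h4]
      simp
  set d := Q (semJ K.subtype b v₀) with hd
  have hmem : ∀ v : Fin n → K, Q (semJ K.subtype b v) / d ∈ K := by
    intro v
    rw [hK, map_div₀, hform, hform, ← hd, mul_div_mul_left _ _ hμ]
  let q : (Fin n → K) → K := fun v => ⟨Q (semJ K.subtype b v) / d, hmem v⟩
  have hq : ∀ v, ((q v : K) : F) = Q (semJ K.subtype b v) / d := fun v => rfl
  have hpol : ∀ v w, ((polar q v w : K) : F) = polar Q (semJ K.subtype b v) (semJ K.subtype b w) / d := by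
    intro v w
    show (q (v + w) : F) - (q v : F) - (q w : F) = _
    rw [hq, hq, hq, semJ_add, polar]
    ring
  refine ⟨QuadraticMap.ofPolar q ?_ ?_ ?_, d, hv₀, ?_⟩
  · intro a v
    apply Subtype.ext
    show ((q (a • v) : K) : F) = ((a * a) * q v : K)
    rw [hq, semJ_smul, QuadraticMap.map_smul]
    show (a : F) * a * Q (semJ K.subtype b v) / d = (a * a : F) * (q v : F)
    rw [hq]
    ring
  · intro v w u
    apply Subtype.ext
    have h1 := hpol (v + w) u
    have h2 := hpol v u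
    have h3 := hpol w u
    show ((polar q (v + w) u : K) : F) = ((polar q v u : K) : F) + ((polar q w u : K) : F)
    rw [h1, h2, h3, semJ_add, polar_add_left]
    ring
  · intro a v w
    apply Subtype.ext
    have h1 := hpol (a • v) w
    have h2 := hpol v w
    show ((polar q (a • v) w : K) : F) = (a : F) * ((polar q v w : K) : F)
    rw [h1, h2, semJ_smul, polar_smul_left]
    show (a : F) * _ / d = _
    ring
  · intro v
    show _ = d * ((q v : K) : F)
    rw [hq, mul_div_cancel₀ _ hv₀]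

end form

section main

variable {F V : Type*} [Field F] [Finite F] [AddCommGroup V] [Module F V] [FiniteDimensional F V]
  {Q : QuadraticForm F V} {G : Type*} [Group G] {N : Subgroup G} {ρ : ↥(E Q) →* G}

/-- **BOX FA1.** -/
theorem exists_descent (hG : Good Q) (hρ : Rep Q N ρ) {ι : Type*} [Finite ι] {x : ι → G} {M : ι → Gam Q}
    {r : ι → ℕ} (hl : ∀ i, Lf ρ (x i) (M i)) (hx : PF x r) (hnl : ∃ i, ¬ IsLin (M i)) :
    ∃ (K : Subfield F) (b : Module.Basis (Fin (Module.finrank F V)) F V)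
      (Q₀ : QuadraticForm K (Fin (Module.finrank F V) → K)) (d : F),
      ¬ Function.Surjective K.subtype ∧ d ≠ 0 ∧
      (∀ v, Q (semJ K.subtype b v) = d * K.subtype (Q₀ v)) ∧
      (∀ i, ¬ IsLin (M i) → ∃ s : F, s ≠ 0 ∧ ∀ v, (M i).1 (semJ K.subtype b v) = s • semJ K.subtype b v) ∧
      ∀ i, IsLin (M i) → ∃ (s : F) (T : (Fin (Module.finrank F V) → K) ≃ₗ[K] (Fin (Module.finrank F V) → K)),
        s ≠ 0 ∧ ∀ v, (M i).1 (semJ K.subtype b v) = s • semJ K.subtype b (T v) := by
  classical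
  -- the nonlinear members
  let κ := {i : ι // ¬ IsLin (M i)}
  have hf : ∀ i : κ, ∃ τ : F ≃+* F, τ ≠ 1 ∧ Fld ρ (x i) τ := by
    rintro ⟨i, hi⟩
    obtain ⟨σ, c, hM⟩ := (M i).2
    refine ⟨σ, ?_, M i, c, hl i, hM⟩
    rintro rfl
    exact hi (isLin_of_ss hM)
  obtain ⟨g, τ, hgc, hgk, ⟨Y, c₀, hY, hYs⟩, hgm⟩ := exists_gen_fld (x := fun i : κ => x i) (r := fun i : κ => r i)
    hG hρ (fun i => hx.prime i) (fun i j h => Subtype.ext (hx.inj h)) (fun i => hx.pow i)
    (fun i j => hx.comm i j) hf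
  have hτ1 : τ ≠ 1 := by
    obtain ⟨i, hi⟩ := hnl
    obtain ⟨k, hk⟩ := hgk ⟨i, hi⟩
    obtain ⟨σ, hσ1, hσ⟩ := hf ⟨i, hi⟩
    rintro rfl
    apply hσ1
    have h1 : Fld ρ (x i) ((1 : F ≃+* F) ^ k) := by
      show Fld ρ (x i) _
      have : x i = g ^ k := hk
      rw [this]
      exact Fld.pow ⟨Y, c₀, hY, hYs⟩ k
    rw [one_pow] at h1
    exact hσ.uniq hG hρ h1
  have hfin : Finite (F ≃+* F) := Finite.of_injective (fun e : F ≃+* F => (e : F → F)) DFunLike.coe_injective
  -- descent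
  obtain ⟨c₁, -, hc₁⟩ := hY.pow_scal hG hρ hgm
  obtain ⟨a, ha, b, hb⟩ := descent τ (orderOf τ) (orderOf_pos τ) rfl { Y.1 with map_add' := hYs.add }
    (fun t v => hYs.smul t v) c₁ (by
      intro v
      have h1 := hc₁ v
      rw [Subgroup.coe_pow, ← Equiv.Perm.iterate_eq_pow] at h1
      exact h1)
  have hb' : ∀ i, Y.1 (b i) = a⁻¹ • b i := by
    intro i
    have h1 : a • Y.1 (b i) = b i := hb i
    rw [← h1, smul_smul, inv_mul_cancel₀ ha, one_smul]
    exact congrArg Y.1 h1
  let K : Subfield F := (τ : F →+* F).eqLocusField (RingHom.id F)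
  have hK : ∀ t, t ∈ K ↔ τ t = t := fun t => Iff.rfl
  set J := semJ K.subtype b with hJ
  let Yh : V →+ V := ⟨⟨Y.1, hYs.map_zero⟩, hYs.add⟩
  have hYh : ∀ v, Yh v = Y.1 v := fun v => rfl
  have hYJ : ∀ v, Y.1 (J v) = a⁻¹ • J v := by
    intro v
    rw [← hYh, hJ, semJ, map_sum, Finset.smul_sum]
    refine Finset.sum_congr rfl fun i _ => ?_
    rw [hYh, hYs.smul, hb']
    have h1 : τ (K.subtype (v i)) = K.subtype (v i) := (v i).2
    rw [h1, smul_comm]
  have hYk : ∀ k : ℕ, ∃ t : F, t ≠ 0 ∧ ∀ v, (Y ^ k).1 (J v) = t • J v := by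
    intro k
    induction k with
    | zero => exact ⟨1, one_ne_zero, fun v => by rw [pow_zero, one_smul]; rfl⟩
    | succ k ih =>
      obtain ⟨t, ht, h⟩ := ih
      refine ⟨τ t * a⁻¹, mul_ne_zero ((map_ne_zero τ).mpr ht) (inv_ne_zero ha), fun v => ?_⟩
      rw [pow_succ']
      show Y.1 ((Y ^ k).1 (J v)) = _
      rw [h, hYs.smul, hYJ, smul_smul]
  -- the form
  have hμ : c₀⁻¹ * (a⁻¹ * a⁻¹) ≠ 0 := mul_ne_zero (inv_ne_zero hYs.ne) (mul_ne_zero (inv_ne_zero ha) (inv_ne_zero ha))
  obtain ⟨Q₀, d, hd, hQ⟩ := exists_form hG hK b hμ (by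
    intro v
    have h1 := hYs.form (J v)
    rw [hYJ, QuadraticMap.map_smul, smul_eq_mul] at h1
    rw [← hJ, mul_assoc, h1, ← mul_assoc, inv_mul_cancel₀ hYs.ne, one_mul])
  refine ⟨K, b, Q₀, d, ?_, hd, hQ, ?_, ?_⟩
  · intro hsurj
    apply hτ1
    ext t
    obtain ⟨u, rfl⟩ := hsurj t
    exact u.2
  · intro i hi
    obtain ⟨k, hk⟩ := hgk ⟨i, hi⟩
    have h1 : Lf ρ (x i) (Y ^ k) := by
      have : x i = g ^ k := hk
      rw [this]
      exact hY.pow k
    obtain ⟨u, hu, h2⟩ := lf_unique hG hρ (hl i) h1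
    obtain ⟨t, ht, h3⟩ := hYk k
    refine ⟨u * t, mul_ne_zero hu ht, fun v => ?_⟩
    rw [← hJ, h2, h3, smul_smul]
  · intro i hi
    obtain ⟨σ, c, hM⟩ := (M i).2
    have hσ := ss_one_of_isLin hG hi hM
    subst hσ
    -- commutation
    have hcg : x i * g = g * x i := by
      have h1 : Subgroup.closure (Set.range fun j : κ => x j) ≤ Subgroup.centralizer {x i} := by
        rw [Subgroup.closure_le]
        rintro _ ⟨j, rfl⟩
        rw [SetLike.mem_coe, Subgroup.mem_centralizer_singleton_iff]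
        exact hx.comm j i
      exact (Subgroup.mem_centralizer_singleton_iff.mp (h1 hgc)).symm
    obtain ⟨l, hl0, hcomm⟩ := (hl i).comm hG hρ hY hcg
    let X : V →ₗ[F] V := { toFun := (M i).1, map_add' := hM.add, map_smul' := hi }
    have hXa : ∀ v, X v = (M i).1 v := fun v => rfl
    let cf : Fin (Module.finrank F V) → Fin (Module.finrank F V) → F := fun k j => b.repr (X (b j)) k
    have hcf : ∀ j, X (b j) = ∑ k, cf k j • b k := fun j => (b.sum_repr (X (b j))).symm
    have hrel : ∀ k j, cf k j = l * τ (cf k j) := by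
      intro k j
      have h1 := hcomm (b j)
      rw [hb', hi, ← hXa, hcf, ← hYh, map_sum] at h1
      have h2 : ∀ k, Yh (cf k j • b k) = a⁻¹ • (τ (cf k j) • b k) := fun k => by
        rw [hYh, hYs.smul, hb', smul_comm]
      rw [Finset.sum_congr rfl fun k _ => h2 k, ← Finset.smul_sum, smul_comm l a⁻¹] at h1
      have h3 := smul_right_injective V (inv_ne_zero ha) h1
      have h4 := congrArg (fun v => b.repr v k) h3
      simp only [Finset.smul_sum, smul_smul, map_sum, map_smul, Finsupp.coe_finsetSum, Finset.sum_apply,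
        Finsupp.smul_apply, Module.Basis.repr_self, smul_eq_mul] at h4
      have h5 : ∀ f : Fin (Module.finrank F V) → F, ∑ j, f j * (Finsupp.single j (1 : F)) k = f k := by
        intro f
        rw [Finset.sum_eq_single k]
        · rw [Finsupp.single_eq_same, mul_one]
        · intro j _ hj
          rw [Finsupp.single_eq_of_ne (by tauto), mul_zero]
        · intro h
          exact (h (Finset.mem_univ k)).elim
      rw [h5, h5] at h4
      exact h4
    obtain ⟨k₀, j₀, hs⟩ : ∃ k j, cf k j ≠ 0 := by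
      by_contra hno
      push Not at hno
      obtain ⟨y, z, hyz⟩ := hG.exists_hyp
      have h1 : X = 0 := b.ext fun j => by
        rw [hcf j]
        simp [hno]
      have h2 : (M i).1 y = (M i).1 0 := by
        rw [← hXa, ← hXa, h1]
        rfl
      exact hyz.left_ne ((M i).1.injective h2)
    set s := cf k₀ j₀ with hsdef
    have hmem : ∀ k j, cf k j / s ∈ K := by
      intro k j
      rw [hK, map_div₀]
      have h1 := hrel k j
      have h2 := hrel k₀ j₀
      rw [← hsdef] at h2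
      have hτs : τ s ≠ 0 := (map_ne_zero τ).mpr hs
      rw [div_eq_div_iff hτs hs]
      have h3 : cf k j * τ s = l * τ (cf k j) * τ s := by rw [← h1]
      have h4 : τ (cf k j) * s = τ (cf k j) * (l * τ s) := by rw [← h2]
      rw [h3, h4]
      ring
    let T₀ : Matrix (Fin (Module.finrank F V)) (Fin (Module.finrank F V)) K := Matrix.of fun k j => ⟨cf k j / s, hmem k j⟩
    have hT₀ : ∀ k j, (T₀ k j : F) = cf k j / s := fun k j => rfl
    have hXJ : ∀ v, (M i).1 (J v) = s • J (T₀.mulVec v) := by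
      intro v
      rw [← hXa, hJ, semJ, semJ, map_sum, Finset.smul_sum]
      have h1 : ∀ j, X (K.subtype (v j) • b j) = ∑ k, (cf k j * (v j : F)) • b k := by
        intro j
        rw [map_smul, hcf, Finset.smul_sum]
        refine Finset.sum_congr rfl fun k _ => ?_
        rw [smul_smul, mul_comm]
        rfl
      rw [Finset.sum_congr rfl fun j _ => h1 j, Finset.sum_comm]
      refine Finset.sum_congr rfl fun k _ => ?_
      rw [← Finset.sum_smul, smul_smul]
      congr 1
      have h2 : K.subtype (T₀.mulVec v k) = ∑ j, (cf k j / s) * (v j : F) := by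
        rw [Matrix.mulVec, dotProduct, map_sum]
        rfl
      rw [h2, Finset.mul_sum]
      refine Finset.sum_congr rfl fun j _ => ?_
      rw [← mul_assoc, mul_div_cancel₀ _ hs]
    refine ⟨s, LinearEquiv.ofInjectiveEndo (Matrix.toLin' T₀) ?_, hs, fun v => ?_⟩
    · rw [← LinearMap.ker_eq_bot, LinearMap.ker_eq_bot']
      intro v hv
      have h1 := hXJ v
      have h2 : T₀.mulVec v = 0 := hv
      rw [h2, hJ, semJ_zero, smul_zero, ← hM.map_zero] at h1
      have h3 := (M i).1.injective h1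
      rw [← semJ_zero (φ := K.subtype) (b := b)] at h3
      exact semJ_injective h3
    · exact hXJ v

end main

end Cfsg.Agent.H188.RC
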