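import Cfsg.Agent.H237.RC.IDDef

/-!
# S3510, triality type (i), box iD part A: the common fixed space is nondegenerate, the normal form (helper188)
-/

set_option autoImplicit false
open Cfsg

namespace Cfsg.Agent.H188.RC.IDNormal

open Module QuadraticMap Cfsg.Agent.LieClassical.OrthCore Cfsg.Agent.LieClassical.OrthTrans
  Cfsg.Agent.ClassicalGeometry.OrthSemi Cfsg.Agent.LieClassical.QuadForms
  Cfsg.Agent.ClassicalGeometry.TrialityOct Cfsg.Agent.ClassicalGeometry.Triality
  Cfsg.Agent.H198.TriBase Cfsg.Agent.H752.SemiNormal Cfsg.Agent.H198.TriDia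

variable {F : Type} [Field F]

/-! ### Linear isometries -/

/-- a linear isometry preserves the polar form -/
theorem pol {M : G8 F} (h : IsSS (plusForm 4 F) (RingEquiv.refl F) 1 M.1) (x y : V8 F) :
    polar (plusForm 4 F) (M.1 x) (M.1 y) = polar (plusForm 4 F) x y := by
  rw [h.polar, one_mul]; rfl

theorem nrm {M : G8 F} (h : IsSS (plusForm 4 F) (RingEquiv.refl F) 1 M.1) (x : V8 F) :
    plusForm 4 F (M.1 x) = plusForm 4 F x := by
  rw [h.form, one_mul]; rfl

theorem sml {M : G8 F} (h : IsSS (plusForm 4 F) (RingEquiv.refl F) 1 M.1) (c : F) (x : V8 F) :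
    M.1 (c • x) = c • M.1 x := h.smul c x

/-- the linear map -/
def lin {M : G8 F} (h : IsSS (plusForm 4 F) (RingEquiv.refl F) 1 M.1) : V8 F ≃ₗ[F] V8 F where
  toFun := M.1
  invFun := M.1.symm
  left_inv := M.1.symm_apply_apply
  right_inv := M.1.apply_symm_apply
  map_add' := h.add
  map_smul' := fun c x => sml h c x

theorem lin_apply {M : G8 F} (h : IsSS (plusForm 4 F) (RingEquiv.refl F) 1 M.1) (x : V8 F) : lin h x = M.1 x := rfl

theorem pol_symm (x y : V8 F) : polar (plusForm 4 F) x y = polar (plusForm 4 F) y x := QuadraticMap.polar_comm _ _ _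

theorem pol_add_left (x y z : V8 F) :
    polar (plusForm 4 F) (x + y) z = polar (plusForm 4 F) x z + polar (plusForm 4 F) y z := by
  simp only [polar8, Pi.add_apply]; ring

theorem pol_add_right (x y z : V8 F) :
    polar (plusForm 4 F) x (y + z) = polar (plusForm 4 F) x y + polar (plusForm 4 F) x z := by
  simp only [polar8, Pi.add_apply]; ring

theorem pol_sub_left (x y z : V8 F) :
    polar (plusForm 4 F) (x - y) z = polar (plusForm 4 F) x z - polar (plusForm 4 F) y z := by
  simp only [polar8, Pi.sub_apply]; ring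

theorem pol_sub_right (x y z : V8 F) :
    polar (plusForm 4 F) x (y - z) = polar (plusForm 4 F) x y - polar (plusForm 4 F) x z := by
  simp only [polar8, Pi.sub_apply]; ring

theorem pol_smul_left (c : F) (x y : V8 F) :
    polar (plusForm 4 F) (c • x) y = c * polar (plusForm 4 F) x y := by
  simp only [polar8, Pi.smul_apply, smul_eq_mul]; ring

theorem pol_smul_right (c : F) (x y : V8 F) :
    polar (plusForm 4 F) x (c • y) = c * polar (plusForm 4 F) x y := by
  simp only [polar8, Pi.smul_apply, smul_eq_mul]; ring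

theorem pol_one (x : V8 F) : polar (plusForm 4 F) x (one8 F) = x (.inl 0) + x (.inr 0) := by
  simp [polar8, one8]

/-- the plus form is nondegenerate -/
theorem eq_zero_of_pol {x : V8 F} (h : ∀ y, polar (plusForm 4 F) x y = 0) : x = 0 := by
  apply ext8
  · simpa [polar8, bs] using h (bs (.inr 0))
  · simpa [polar8, bs] using h (bs (.inr 1))
  · simpa [polar8, bs] using h (bs (.inr 2))
  · simpa [polar8, bs] using h (bs (.inr 3))
  · simpa [polar8, bs] using h (bs (.inl 0))
  · simpa [polar8, bs] using h (bs (.inl 1))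
  · simpa [polar8, bs] using h (bs (.inl 2))
  · simpa [polar8, bs] using h (bs (.inl 3))

/-! ### A1: averaging -/

/-- A1 (averaging): the common fixed space of commuting `p'`-isometries is nondegenerate. -/
theorem nondeg_fix [Finite F] {p : ℕ} [CharP F p] {κ : Type} [Finite κ]
    (M : κ → G8 F) (s : κ → ℕ) (hs : ∀ j, (s j).Prime) (hsp : ∀ j, s j ≠ p)
    (hiso : ∀ j, IsSS (plusForm 4 F) (RingEquiv.refl F) 1 (M j).1) (hpow : ∀ j, M j ^ s j = 1)
    (hc : ∀ i j, M i * M j = M j * M i) (x : V8 F) (hx : ∀ j, (M j).1 x = x)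
    (h : ∀ y, (∀ j, (M j).1 y = y) → polar (plusForm 4 F) x y = 0) : x = 0 := by
  classical
  have hcc : ∀ i j (v : V8 F), (M i).1 ((M j).1 v) = (M j).1 ((M i).1 v) := by
    intro i j v
    exact congrArg (fun z : G8 F => z.1 v) (hc i j)
  -- the averages
  have hsF : ∀ j, ((s j : ℕ) : F) ≠ 0 := by
    intro j h0
    have hp : p.Prime := CharP.char_is_prime F p
    have h1 := (CharP.cast_eq_zero_iff F p (s j)).1 h0
    exact hsp j ((Nat.prime_dvd_prime_iff_eq hp (hs j)).1 h1).symm
  have key : ∀ t : Finset κ, ∀ v : V8 F, ∃ w : V8 F, (∀ j ∈ t, (M j).1 w = w) ∧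
      polar (plusForm 4 F) x w = polar (plusForm 4 F) x v := by
    intro t
    induction t using Finset.induction_on with
    | empty => intro v; exact ⟨v, by simp, rfl⟩
    | insert j t hj ih =>
      intro v
      obtain ⟨w, hw, hwv⟩ := ih v
      have hadd := (hiso j).add
      -- iterates
      have hit : ∀ k : ℕ, ∀ i ∈ t, (M i).1 ((M j ^ k).1 w) = (M j ^ k).1 w := by
        intro k i hi
        induction k with
        | zero => exact hw i hi
        | succ k ihk =>
          have e1 : (M j ^ (k + 1)).1 w = (M j).1 ((M j ^ k).1 w) := by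
            rw [pow_succ']; rfl
          rw [e1, hcc, ihk]
      have hpolk : ∀ k : ℕ, polar (plusForm 4 F) x ((M j ^ k).1 w) = polar (plusForm 4 F) x w := by
        intro k
        induction k with
        | zero => rfl
        | succ k ihk =>
          have e1 : (M j ^ (k + 1)).1 w = (M j).1 ((M j ^ k).1 w) := by
            rw [pow_succ']; rfl
          rw [e1, ← ihk]
          nth_rw 1 [← hx j]
          exact pol (hiso j) _ _
      have hsum : ∀ i, (M i).1 (∑ k ∈ Finset.range (s j), (M j ^ k).1 w) =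
          ∑ k ∈ Finset.range (s j), (M i).1 ((M j ^ k).1 w) := by
        intro i
        have := map_sum (lin (hiso i)) (fun k => (M j ^ k).1 w) (Finset.range (s j))
        exact this
      refine ⟨((s j : ℕ) : F)⁻¹ • ∑ k ∈ Finset.range (s j), (M j ^ k).1 w, ?_, ?_⟩
      · intro i hi
        rw [sml (hiso i), hsum]
        congr 1
        rcases Finset.mem_insert.1 hi with rfl | hi
        · have e1 : ∀ k, (M i).1 ((M i ^ k).1 w) = (M i ^ (k + 1)).1 w := by
            intro k
            rw [pow_succ']; rfl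
          have e2 : ∑ k ∈ Finset.range (s i), (M i).1 ((M i ^ k).1 w) =
              ∑ k ∈ Finset.range (s i), (M i ^ (k + 1)).1 w := Finset.sum_congr rfl fun k _ => e1 k
          rw [e2]
          have e3 := Finset.sum_range_succ (fun k => (M i ^ k).1 w) (s i)
          have e4 := Finset.sum_range_succ' (fun k => (M i ^ k).1 w) (s i)
          rw [e3] at e4
          have e5 : (M i ^ (s i)).1 w = (M i ^ 0).1 w := by rw [hpow, pow_zero]
          rw [e5] at e4
          exact (add_right_cancel e4).symm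
        · exact Finset.sum_congr rfl fun k _ => hit k i hi
      · rw [pol_smul_right]
        have e1 : polar (plusForm 4 F) x (∑ k ∈ Finset.range (s j), (M j ^ k).1 w) =
            ∑ k ∈ Finset.range (s j), polar (plusForm 4 F) x ((M j ^ k).1 w) := by
          have e6 : ∀ n : ℕ, polar (plusForm 4 F) x (∑ k ∈ Finset.range n, (M j ^ k).1 w) =
              ∑ k ∈ Finset.range n, polar (plusForm 4 F) x ((M j ^ k).1 w) := by
            intro n
            induction n with
            | zero => simp [polar8]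
            | succ n ihn => rw [Finset.sum_range_succ, Finset.sum_range_succ, pol_add_right, ihn]
          exact e6 _
        rw [e1, Finset.sum_congr rfl fun k _ => hpolk k, Finset.sum_const, Finset.card_range, nsmul_eq_mul,
          ← mul_assoc, inv_mul_cancel₀ (hsF j), one_mul, hwv]
  have : Fintype κ := Fintype.ofFinite κ
  apply eq_zero_of_pol
  intro v
  obtain ⟨w, hw, hwv⟩ := key Finset.univ v
  rw [← hwv]
  exact h w fun j => hw j (Finset.mem_univ _)

/-! ### The normal form of `l, n, r` -/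

/-- a matrix of determinant one with given first row -/
theorem exists_mat (a1 a2 a3 b1 b2 b3 : F) (h : a1 * b1 + a2 * b2 + a3 * b3 = 1) :
    ∃ P : Matrix (Fin 3) (Fin 3) F, P.det = 1 ∧ P 0 0 = b1 ∧ P 0 1 = b2 ∧ P 0 2 = b3 ∧
      P 1 0 * a1 + P 1 1 * a2 + P 1 2 * a3 = 0 ∧ P 2 0 * a1 + P 2 1 * a2 + P 2 2 * a3 = 0 := by
  by_cases h1 : a1 = 0
  · by_cases h2 : a2 = 0
    · have h3 : a3 ≠ 0 := by
        rintro rfl
        rw [h1, h2] at h
        simp at h
      refine ⟨!![b1, b2, b3; a3, 0, -a1; 0, 1, -(a2 / a3)], ?_, rfl, rfl, rfl, ?_, ?_⟩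
      · rw [Matrix.det_fin_three]
        simp
        field_simp
        linear_combination h
      · simp
        ring
      · simp
        field_simp
        ring
    · refine ⟨!![b1, b2, b3; 0, -a3, a2; 1, -(a1 / a2), 0], ?_, rfl, rfl, rfl, ?_, ?_⟩
      · rw [Matrix.det_fin_three]
        simp
        field_simp
        linear_combination h
      · simp
        ring
      · simp
        field_simp
        ring
  · refine ⟨!![b1, b2, b3; -a2, a1, 0; -(a3 / a1), 0, 1], ?_, rfl, rfl, rfl, ?_, ?_⟩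
    · rw [Matrix.det_fin_three]
      simp
      field_simp
      linear_combination h
    · simp
      ring
    · simp
      field_simp
      ring

theorem four_le_H0 : 4 ≤ finrank F (H237.RC.ID.H0 F) := by
  let f : (Fin 4 → F) →ₗ[F] H237.RC.ID.H0 F :=
    { toFun := fun y => ⟨Sum.elim ![y 0, y 1, 0, 0] ![y 2, y 3, 0, 0], rfl, rfl, rfl, rfl⟩
      map_add' := by
        intro x y
        apply Subtype.ext
        apply ext8 <;> simp
      map_smul' := by
        intro c x
        apply Subtype.ext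
        apply ext8 <;> simp }
  have hf : Function.Injective f := by
    intro x y hxy
    have h1 : (f x).1 = (f y).1 := congrArg Subtype.val hxy
    have h0 := congrFun h1 (.inl 0)
    have h2 := congrFun h1 (.inl 1)
    have h3 := congrFun h1 (.inr 0)
    have h4 := congrFun h1 (.inr 1)
    funext i
    fin_cases i
    · exact h0
    · exact h2
    · exact h3
    · exact h4
  have := LinearMap.finrank_le_finrank_of_injective hf
  rwa [finrank_fin_fun] at this

/-- automorphisms are transitive on the frames of quaternion subalgebras -/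
theorem exists_frame (A : Submodule F (V8 F)) (hA4 : finrank F A = 4) (hA1 : one8 F ∈ A)
    (hAm : ∀ x ∈ A, ∀ y ∈ A, omul x y ∈ A) {l n r : V8 F} (hl : l ∈ A) (hn : n ∈ A) (hr : r ∈ A)
    (hl1 : polar (plusForm 4 F) l (one8 F) = 1) (hl0 : plusForm 4 F l = 0) (hln : omul l n = n)
    (hnl : omul n l = 0) (hnr : polar (plusForm 4 F) n r = 1) :
    ∃ φ : G8 F, TriS φ φ φ ∧ IsSS (plusForm 4 F) (RingEquiv.refl F) 1 φ.1 ∧ φ.1 l = bs (.inl 0) ∧
      φ.1 n = bs (.inl 1) ∧ ∀ x, φ.1 x ∈ H237.RC.ID.H0 F ↔ x ∈ A := by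
  rw [pol_one] at hl1
  obtain ⟨N, hN, hNl, hNe⟩ := exists_aut hl1 hl0
  replace hNe : N.1 l = bs (.inl 0) := hNe
  have e1 : omul (bs (.inl 0)) (N.1 n) = N.1 n := by rw [← hNe, ← hN, hln]
  have e2 : omul (N.1 n) (bs (.inl 0)) = 0 := by rw [← hNe, ← hN, hnl]; exact hNl.map_zero
  have c1 : N.1 n (.inl 0) = 0 := by
    have := congrFun e2 (.inl 0)
    simpa [omul_l0, bs] using this
  have c2 : N.1 n (.inr 0) = 0 := by
    have := congrFun e1 (.inr 0)
    simpa [omul_r0, bs] using this.symm
  have c3 : N.1 n (.inr 1) = 0 := by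
    have := congrFun e1 (.inr 1)
    simpa [omul_r1, bs] using this.symm
  have c4 : N.1 n (.inr 2) = 0 := by
    have := congrFun e1 (.inr 2)
    simpa [omul_r2, bs] using this.symm
  have c5 : N.1 n (.inr 3) = 0 := by
    have := congrFun e1 (.inr 3)
    simpa [omul_r3, bs] using this.symm
  have c6 : N.1 n (.inl 1) * N.1 r (.inr 1) + N.1 n (.inl 2) * N.1 r (.inr 2) + N.1 n (.inl 3) * N.1 r (.inr 3) = 1 := by
    have h1 := pol hNl n r
    rw [hnr, polar8, c1, c2, c3, c4, c5] at h1
    linear_combination h1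
  obtain ⟨P, hP, p0, p1, p2, p3, p4⟩ := exists_mat _ _ _ _ _ _ c6
  have hPd : P 0 0 * (P 1 1 * P 2 2 - P 1 2 * P 2 1) + P 0 1 * (P 1 2 * P 2 0 - P 1 0 * P 2 2) +
      P 0 2 * (P 1 0 * P 2 1 - P 1 1 * P 2 0) = 1 := by rw [← H161.Oct.det3, hP]
  let φ : G8 F := liG (H161.Oct.sl_mem P hP) * N
  have hφ : ∀ x, φ.1 x = oz (H161.Oct.slF P (zo (N.1 x))) := fun x => rfl
  have hT : TriS φ φ φ := (tri_liG (H161.Oct.sl_mem P hP)).mul hN
  have hI : IsSS (plusForm 4 F) (RingEquiv.refl F) 1 φ.1 := by
    have h1 := (isSS_liP (H161.Oct.sl_mem P hP)).mul hNl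
    refine ⟨one_ne_zero, h1.add, h1.smul, fun v => ?_⟩
    have h2 := h1.form v
    rw [map_one, one_mul, one_mul] at h2
    rw [one_mul]
    exact h2
  have f1 : φ.1 l = bs (.inl 0) := by
    rw [hφ, hNe]
    apply ext8 <;> simp [oz, zo, H161.Oct.slF, bs]
  have f2 : φ.1 n = bs (.inl 1) := by
    rw [hφ]
    apply ext8 <;> simp [oz, zo, H161.Oct.slF, bs, c1, c2, c3, c4, c5]
    · rw [p0, p1, p2]; linear_combination c6
    · exact p3
    · exact p4
  have f3 : φ.1 r (.inr 1) = 1 := by
    have h1 := pol hI n r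
    rw [hnr, f2, polar8] at h1
    simpa [bs] using h1
  have f4 : φ.1 r (.inr 2) = 0 := by
    rw [hφ]
    simp [oz, zo, H161.Oct.slF]
    rw [p0, p1, p2]; ring
  have f5 : φ.1 r (.inr 3) = 0 := by
    rw [hφ]
    simp [oz, zo, H161.Oct.slF]
    rw [p0, p1, p2]; ring
  refine ⟨φ, hT, hI, f1, f2, ?_⟩
  -- the image of `A`
  have hone : φ.1 (one8 F) = one8 F := aut_one hT
  have g1 : bs (.inl 0) ∈ A.map (lin hI).toLinearMap := ⟨l, hl, f1⟩
  have g2 : one8 F ∈ A.map (lin hI).toLinearMap := ⟨one8 F, hA1, hone⟩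
  have g3 : bs (.inl 1) ∈ A.map (lin hI).toLinearMap := ⟨n, hn, f2⟩
  have g4 : bs (.inr 0) ∈ A.map (lin hI).toLinearMap := by
    rw [bs_r0]
    exact Submodule.sub_mem _ g2 g1
  have g5 : bs (.inr 1) ∈ A.map (lin hI).toLinearMap := by
    refine ⟨omul (omul (one8 F - l) r) l, hAm _ (hAm _ (A.sub_mem hA1 hl) _ hr) _ hl, ?_⟩
    change φ.1 _ = _
    rw [hT, hT, hI.sub, hone, f1]
    apply ext8 <;>
      simp [omul_l0, omul_l1, omul_l2, omul_l3, omul_r0, omul_r1, omul_r2, omul_r3, one8, bs, f3, f4, f5]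
  have g6 : H237.RC.ID.H0 F ≤ A.map (lin hI).toLinearMap := by
    rintro x ⟨h1, h2, h3, h4⟩
    rw [decomp x, h1, h2, h3, h4, zero_smul, zero_smul, zero_smul, zero_smul, add_zero, add_zero, add_zero, add_zero]
    exact Submodule.add_mem _ (Submodule.add_mem _ (Submodule.add_mem _ (Submodule.smul_mem _ _ g1)
      (Submodule.smul_mem _ _ g3)) (Submodule.smul_mem _ _ g4)) (Submodule.smul_mem _ _ g5)
  have g7 : finrank F (A.map (lin hI).toLinearMap) = 4 := by
    exact (LinearEquiv.finrank_map_eq (lin hI) A).trans hA4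
  have g8 : H237.RC.ID.H0 F = A.map (lin hI).toLinearMap :=
    Submodule.eq_of_le_of_finrank_le g6 (by rw [g7]; exact four_le_H0)
  intro x
  rw [g8]
  constructor
  · rintro ⟨y, hy, hyx⟩
    have : y = x := φ.1.injective hyx
    rwa [← this]
  · intro hx
    exact ⟨x, hx, rfl⟩

/-! ### The unipotent automorphism -/

/-- the operator `U - 1` is nilpotent -/
theorem nil_of_pow {p : ℕ} [CharP F p] (hp : p.Prime) {U : G8 F}
    (hUl : IsSS (plusForm 4 F) (RingEquiv.refl F) 1 U.1) (hUp : U ^ p = 1) (x : V8 F) :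
    (((lin hUl).toLinearMap - 1 : Module.End F (V8 F)) ^ p) x = 0 := by
  have : Fact p.Prime := ⟨hp⟩
  have h0 : ((Polynomial.X - 1 : Polynomial F)) ^ p = Polynomial.X ^ p - 1 := by
    rw [sub_pow_char, one_pow]
  have h1 := congrArg (Polynomial.aeval (lin hUl).toLinearMap) h0
  rw [map_pow, map_sub, Polynomial.aeval_X, map_one, map_sub, map_pow, Polynomial.aeval_X, map_one] at h1
  rw [h1]
  have h2 : ∀ k : ℕ, ((lin hUl).toLinearMap ^ k : Module.End F (V8 F)) x = (U ^ k).1 x := by
    intro k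
    induction k with
    | zero => rfl
    | succ k ih =>
      rw [pow_succ', pow_succ']
      change U.1 (((lin hUl).toLinearMap ^ k : Module.End F (V8 F)) x) = U.1 ((U ^ k).1 x)
      rw [ih]
  rw [LinearMap.sub_apply, h2, hUp]
  exact sub_self x

/-- a last nonzero `U b - b` -/
theorem exists_last {p : ℕ} [CharP F p] (hp : p.Prime) {A : Submodule F (V8 F)} {U : G8 F}
    (hUl : IsSS (plusForm 4 F) (RingEquiv.refl F) 1 U.1) (hUp : U ^ p = 1)
    (hUA : ∀ x ∈ A, U.1 x ∈ A) {a : V8 F} (ha : a ∈ A) (hne : U.1 a ≠ a) :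
    ∃ b ∈ A, U.1 b - b ≠ 0 ∧ U.1 (U.1 b - b) = U.1 b - b := by
  classical
  let D : Module.End F (V8 F) := (lin hUl).toLinearMap - 1
  have hD : ∀ x, D x = U.1 x - x := fun x => rfl
  have hex : ∃ m : ℕ, (D ^ m) a = 0 := ⟨p, nil_of_pow hp hUl hUp a⟩
  have hmem : ∀ m : ℕ, (D ^ m) a ∈ A := by
    intro m
    induction m with
    | zero => exact ha
    | succ m ih =>
      rw [pow_succ']
      change D ((D ^ m) a) ∈ A
      rw [hD]
      exact A.sub_mem (hUA _ ih) ih
  have h2 : 2 ≤ Nat.find hex := by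
    by_contra hlt
    have h3 : Nat.find hex = 0 ∨ Nat.find hex = 1 := by omega
    have h4 := Nat.find_spec hex
    rcases h3 with h3 | h3
    · rw [h3, pow_zero] at h4
      change a = 0 at h4
      apply hne
      rw [h4, hUl.map_zero]
    · rw [h3, pow_one, hD, sub_eq_zero] at h4
      exact hne h4
  obtain ⟨m, hm⟩ : ∃ m, Nat.find hex = m + 2 := ⟨Nat.find hex - 2, by omega⟩
  have h5 := Nat.find_spec hex
  rw [hm] at h5
  have h6 : (D ^ (m + 1)) a ≠ 0 := Nat.find_min hex (by omega)
  refine ⟨(D ^ m) a, hmem m, ?_, ?_⟩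
  · rw [← hD]
    change (D * D ^ m) a ≠ 0
    rw [← pow_succ']
    exact h6
  · have h7 : D (D ((D ^ m) a)) = 0 := by
      change (D * (D * D ^ m)) a = 0
      rw [← pow_succ', ← pow_succ']
      exact h5
    rw [hD (D _), sub_eq_zero, hD] at h7
    exact h7

/-- `U b - b` is orthogonal to the fixed vectors -/
theorem pol_fix {U : G8 F} (hUl : IsSS (plusForm 4 F) (RingEquiv.refl F) 1 U.1) (b : V8 F) {x : V8 F}
    (hx : U.1 x = x) : polar (plusForm 4 F) (U.1 b - b) x = 0 := by
  rw [pol_sub_left]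
  nth_rw 1 [← hx]
  rw [pol hUl, sub_self]

theorem norm_add' (x y : V8 F) : plusForm 4 F (x + y) = plusForm 4 F x + plusForm 4 F y + polar (plusForm 4 F) x y := by
  rw [QuadraticMap.polar]; ring

theorem norm_smul' (c : F) (x : V8 F) : plusForm 4 F (c • x) = c * c * plusForm 4 F x := QuadraticMap.map_smul _ _ _

theorem pol_self (x : V8 F) : polar (plusForm 4 F) x x = 2 * plusForm 4 F x := by
  rw [polar8, norm8]; ring

/-- a singular fixed vector of trace zero -/
theorem exists_null [Finite F] {p : ℕ} [CharP F p]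
    (A : Submodule F (V8 F)) (hA4 : finrank F A = 4) (hA1 : one8 F ∈ A)
    (hAm : ∀ x ∈ A, ∀ y ∈ A, omul x y ∈ A)
    (hAn : ∀ x ∈ A, (∀ y ∈ A, polar (plusForm 4 F) x y = 0) → x = 0)
    (U : G8 F) (hU : TriS U U U) (hUl : IsSS (plusForm 4 F) (RingEquiv.refl F) 1 U.1) (hUp : U ^ p = 1)
    (hUA : ∀ x ∈ A, U.1 x ∈ A) (hne : ∃ x ∈ A, U.1 x ≠ x) :
    ∃ n ∈ A, n ≠ 0 ∧ U.1 n = n ∧ plusForm 4 F n = 0 ∧ polar (plusForm 4 F) n (one8 F) = 0 := by
  have hp : p.Prime := CharP.char_is_prime F p
  have hone : U.1 (one8 F) = one8 F := aut_one hU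
  by_cases h2 : (2 : F) = 0
  · -- characteristic two
    have hp2 : p = 2 := by
      have h1 : ((2 : ℕ) : F) = 0 := by exact_mod_cast h2
      have h3 := (CharP.cast_eq_zero_iff F p 2).1 h1
      exact (Nat.prime_dvd_prime_iff_eq hp Nat.prime_two).1 h3
    subst hp2
    have hUU : ∀ x, U.1 (U.1 x) = x := by
      intro x
      have := congrArg (fun z : G8 F => z.1 x) hUp
      rw [pow_two] at this
      exact this
    have hneg : ∀ c : F, -c = c := by
      intro c
      linear_combination (-c) * h2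
    have hneg8 : ∀ x : V8 F, -x = x := by
      intro x
      funext i
      exact hneg (x i)
    by_cases hex : ∃ a ∈ A, ∀ c : F, U.1 a - a ≠ c • one8 F
    · obtain ⟨a, ha, hac⟩ := hex
      have hn : U.1 (U.1 a - a) = U.1 a - a := by
        rw [hUl.sub, hUU, ← neg_sub, hneg8]
      obtain ⟨c, hc⟩ : ∃ c : F, c ^ 2 = plusForm 4 F (U.1 a - a) := by
        have := (frobeniusEquiv F 2).surjective (plusForm 4 F (U.1 a - a))
        obtain ⟨c, hc⟩ := this
        exact ⟨c, hc⟩
      have ht : polar (plusForm 4 F) (U.1 a - a) (one8 F) = 0 := pol_fix hUl a hone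
      refine ⟨(U.1 a - a) + c • one8 F, A.add_mem (A.sub_mem (hUA a ha) ha) (A.smul_mem c hA1), ?_, ?_, ?_, ?_⟩
      · intro h0
        apply hac (-c)
        rw [neg_smul]
        exact eq_neg_of_add_eq_zero_left h0
      · rw [hUl.add, hn, sml hUl, hone]
      · rw [norm_add', norm_smul', norm_one8, ← hc, pol_smul_right, ht]
        linear_combination (c ^ 2) * h2
      · rw [pol_add_left, ht, pol_smul_left, pol_self, norm_one8]
        linear_combination c * h2
    · exfalso
      push Not at hex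
      have hf : ∀ a ∈ A, ∃ c : F, U.1 a = a + c • one8 F ∧ (c = 0 ∨ c = polar (plusForm 4 F) a (one8 F)) := by
        intro a ha
        obtain ⟨c, hc⟩ := hex a ha
        have h1 : U.1 a = a + c • one8 F := by rw [← hc]; abel
        refine ⟨c, h1, ?_⟩
        have h3 := nrm hUl a
        rw [h1, norm_add', norm_smul', norm_one8, pol_smul_right] at h3
        have h4 : c * (c + polar (plusForm 4 F) a (one8 F)) = 0 := by linear_combination h3
        rcases mul_eq_zero.1 h4 with h5 | h5
        · exact Or.inl h5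
        · right
          rw [← hneg c]
          linear_combination (-1 : F) * h5
      have hone_ne : one8 F ≠ 0 := by
        intro h0
        have := norm_one8 (F := F)
        rw [h0, QuadraticMap.map_zero] at this
        exact zero_ne_one this
      have hcancel : ∀ c d : F, c • one8 F = d • one8 F → c = d := by
        intro c d hcd
        by_contra hne'
        rw [← sub_eq_zero, ← sub_smul] at hcd
        rcases smul_eq_zero.1 hcd with h5 | h5
        · exact hne' (sub_eq_zero.1 h5)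
        · exact hone_ne h5
      obtain ⟨a0, ha0, hne0⟩ := hne
      obtain ⟨c0, hc0, hc0'⟩ := hf a0 ha0
      have hc0ne : c0 ≠ 0 := by
        rintro rfl
        apply hne0
        rw [hc0, zero_smul, add_zero]
      have hc0t : c0 = polar (plusForm 4 F) a0 (one8 F) := hc0'.resolve_left hc0ne
      have hconj : ∀ a ∈ A, U.1 a = oconj a := by
        intro a ha
        obtain ⟨c, hc, hc'⟩ := hf a ha
        have h6 : c = polar (plusForm 4 F) a (one8 F) := by
          rcases hc' with rfl | h5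
          · obtain ⟨d, hd, hd'⟩ := hf (a + a0) (A.add_mem ha ha0)
            have h7 : d = c0 := by
              apply hcancel
              rw [hUl.add, hc, hc0, zero_smul, add_zero, ← add_assoc] at hd
              exact (add_left_cancel hd).symm
            rw [h7, pol_add_left, ← hc0t] at hd'
            rcases hd' with h8 | h8
            · exact absurd h8 hc0ne
            · linear_combination h8
          · exact h5
        rw [hc, oconj_eq, ← h6, sub_eq_add_neg, hneg8, add_comm]
      have hcA : ∀ a ∈ A, oconj a ∈ A := by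
        intro a ha
        rw [← hconj a ha]
        exact hUA a ha
      -- `A` is commutative
      have hcomm : ∀ x ∈ A, ∀ y ∈ A, omul x y = omul y x := by
        intro x hx y hy
        have h8 := hU (oconj x) (oconj y)
        rw [hconj _ (hcA x hx), hconj _ (hcA y hy), hconj _ (hAm _ (hcA x hx) _ (hcA y hy)), oconj_omul, oconj_oconj,
          oconj_oconj] at h8
        exact h8.symm
      have horth : ∀ x ∈ A, ∀ y ∈ A, polar (plusForm 4 F) x (one8 F) = 0 → polar (plusForm 4 F) y (one8 F) = 0 →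
          polar (plusForm 4 F) x y = 0 := by
        intro x hx y hy hx1 hy1
        have h9 : omul x (oconj y) + omul y (oconj x) = polar (plusForm 4 F) x y • one8 F := by
          apply ext8 <;> simp only [omul_l0, omul_l1, omul_l2, omul_l3, omul_r0, omul_r1, omul_r2, omul_r3,
            oconj_l0, oconj_l1, oconj_l2, oconj_l3, oconj_r0, oconj_r1, oconj_r2, oconj_r3,
            Pi.add_apply, Pi.smul_apply, smul_eq_mul, polar8] <;> simp [one8] <;> ring
        rw [oconj_eq, oconj_eq, hx1, hy1, zero_smul, zero_sub, zero_sub, hneg8, hneg8, hcomm y hy x hx] at h9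
        have h10 : omul x y + omul x y = 0 := by
          nth_rw 1 [← hneg8 (omul x y)]
          exact neg_add_cancel _
        rw [h10] at h9
        rcases smul_eq_zero.1 h9.symm with h11 | h11
        · exact h11
        · exact absurd h11 hone_ne
      have hscal : ∀ x ∈ A, polar (plusForm 4 F) x (one8 F) = 0 → ∃ c : F, x = c • one8 F := by
        intro x hx hx1
        refine ⟨polar (plusForm 4 F) x a0 / c0, ?_⟩
        rw [← sub_eq_zero]
        apply hAn _ (A.sub_mem hx (A.smul_mem _ hA1))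
        intro y hy
        have k1 : polar (plusForm 4 F) (x - (polar (plusForm 4 F) x a0 / c0) • one8 F) a0 = 0 := by
          rw [pol_sub_left, pol_smul_left, pol_symm (one8 F), ← hc0t]
          field_simp
          ring
        have k2 : polar (plusForm 4 F) (x - (polar (plusForm 4 F) x a0 / c0) • one8 F) (one8 F) = 0 := by
          rw [pol_sub_left, hx1, pol_smul_left, pol_self, h2]
          ring
        have k3 : polar (plusForm 4 F) (y - (polar (plusForm 4 F) y (one8 F) / c0) • a0) (one8 F) = 0 := by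
          rw [pol_sub_left, pol_smul_left, ← hc0t]
          field_simp
          ring
        have k4 := horth _ (A.sub_mem hx (A.smul_mem (polar (plusForm 4 F) x a0 / c0) hA1)) _
          (A.sub_mem hy (A.smul_mem (polar (plusForm 4 F) y (one8 F) / c0) ha0)) k2 k3
        rw [pol_sub_right, pol_smul_right, k1, mul_zero, sub_zero] at k4
        exact k4
      -- dimension
      have hle : A ≤ Submodule.span F ({a0, one8 F} : Set (V8 F)) := by
        intro y hy
        have k3 : polar (plusForm 4 F) (y - (polar (plusForm 4 F) y (one8 F) / c0) • a0) (one8 F) = 0 := by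
          rw [pol_sub_left, pol_smul_left, ← hc0t]
          field_simp
          ring
        obtain ⟨c, hc⟩ := hscal _ (A.sub_mem hy (A.smul_mem (polar (plusForm 4 F) y (one8 F) / c0) ha0)) k3
        rw [Submodule.mem_span_pair]
        exact ⟨_, c, by rw [← hc]; abel⟩
      have h12 := Submodule.finrank_mono hle
      have h13 : finrank F (Submodule.span F ({a0, one8 F} : Set (V8 F))) ≤ 2 := by
        classical
        have h14 := finrank_span_finset_le_card (R := F) ({a0, one8 F} : Finset (V8 F))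
        have h15 : ({a0, one8 F} : Finset (V8 F)).card ≤ 2 := Finset.card_le_two
        rw [Finset.coe_insert, Finset.coe_singleton] at h14
        exact h14.trans h15
      omega
  · -- odd characteristic
    obtain ⟨a, ha, hne⟩ := hne
    obtain ⟨b, hb, hbn, hbf⟩ := exists_last hp hUl hUp hUA ha hne
    refine ⟨U.1 b - b, A.sub_mem (hUA b hb) hb, hbn, hbf, ?_, pol_fix hUl b hone⟩
    have h1 := pol_fix hUl b hbf
    rw [pol_self] at h1
    exact (mul_eq_zero.1 h1).resolve_left h2

/-- the idempotent `n r̄` -/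
theorem idem_facts {n r : V8 F} (hn0 : plusForm 4 F n = 0) (hn1 : polar (plusForm 4 F) n (one8 F) = 0)
    (hnr : polar (plusForm 4 F) n r = 1) :
    polar (plusForm 4 F) (omul n (oconj r)) (one8 F) = 1 ∧ plusForm 4 F (omul n (oconj r)) = 0 ∧
      omul (omul n (oconj r)) n = n ∧ omul n (omul n (oconj r)) = 0 := by
  refine ⟨?_, ?_, ?_, ?_⟩
  · rw [pol_one, ← hnr]
    simp only [omul_l0, omul_r0, oconj_l0, oconj_l1, oconj_l2, oconj_l3, oconj_r0, oconj_r1, oconj_r2, oconj_r3, polar8]
    ring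
  · rw [norm_omul, hn0, zero_mul]
  · rw [omul_oconj_omul_self, hnr, hn0, one_smul, zero_smul, sub_zero]
  · have h1 := oconj_omul_omul n (oconj r)
    rw [oconj_eq n, hn1, hn0, zero_smul, zero_smul, zero_sub] at h1
    have h2 : omul (-n) (omul n (oconj r)) = -omul n (omul n (oconj r)) := by
      rw [← neg_one_smul F n, smul_omul, neg_one_smul]
    rw [h2, neg_eq_zero] at h1
    exact h1

/-- A2 (normal form): a nondegenerate subalgebra of dimension four with a nontrivial unipotent automorphism. -/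
theorem exists_normal [Finite F] {p : ℕ} [CharP F p]
    (A : Submodule F (V8 F)) (hA4 : finrank F A = 4) (hA1 : one8 F ∈ A)
    (hAm : ∀ x ∈ A, ∀ y ∈ A, omul x y ∈ A)
    (hAn : ∀ x ∈ A, (∀ y ∈ A, polar (plusForm 4 F) x y = 0) → x = 0)
    (U : G8 F) (hU : TriS U U U) (hUl : IsSS (plusForm 4 F) (RingEquiv.refl F) 1 U.1) (hUp : U ^ p = 1)
    (hUA : ∀ x ∈ A, U.1 x ∈ A) (hne : ∃ x ∈ A, U.1 x ≠ x) :
    ∃ φ : G8 F, TriS φ φ φ ∧ IsSS (plusForm 4 F) (RingEquiv.refl F) 1 φ.1 ∧ (∀ x, φ.1 x ∈ H237.RC.ID.H0 F ↔ x ∈ A) ∧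
      φ.1 (U.1 (φ⁻¹.1 (bs (.inl 0)))) = bs (.inl 0) - bs (.inl 1) ∧
      φ.1 (U.1 (φ⁻¹.1 (bs (.inl 1)))) = bs (.inl 1) := by
  obtain ⟨n, hn, hnz, hUn, hn0, hn1⟩ := exists_null A hA4 hA1 hAm hAn U hU hUl hUp hUA hne
  obtain ⟨r, hr, hnr⟩ : ∃ r ∈ A, polar (plusForm 4 F) n r = 1 := by
    by_contra hcon
    push Not at hcon
    apply hnz
    apply hAn n hn
    intro y hy
    by_contra h0
    apply hcon ((polar (plusForm 4 F) n y)⁻¹ • y) (A.smul_mem _ hy)
    rw [pol_smul_right, inv_mul_cancel₀ h0]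
  obtain ⟨hl1, hl0, hln, hnl⟩ := idem_facts hn0 hn1 hnr
  have hcr : oconj r ∈ A := by
    rw [oconj_eq]
    exact A.sub_mem (A.smul_mem _ hA1) hr
  have hl : omul n (oconj r) ∈ A := hAm _ hn _ hcr
  generalize omul n (oconj r) = l at hl1 hl0 hln hnl hl
  obtain ⟨φ, hφ, hφl, f1, f2, f3⟩ := exists_frame A hA4 hA1 hAm hl hn hr hl1 hl0 hln hnl hnr
  -- the image of `U l`
  have y1 : omul (φ.1 (U.1 l)) (bs (.inl 1)) = bs (.inl 1) := by
    have h1 := congrArg (fun z => φ.1 (U.1 z)) hln
    change φ.1 (U.1 (omul l n)) = φ.1 (U.1 n) at h1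
    rw [hU, hφ, hUn, f2] at h1
    exact h1
  have y2 : omul (bs (.inl 1)) (φ.1 (U.1 l)) = 0 := by
    have h1 := congrArg (fun z => φ.1 (U.1 z)) hnl
    change φ.1 (U.1 (omul n l)) = φ.1 (U.1 0) at h1
    rw [hU, hφ, hUn, f2, hUl.map_zero, hφl.map_zero] at h1
    exact h1
  obtain ⟨y3, y4, y5, y6⟩ := (f3 (U.1 l)).2 (hUA l hl)
  obtain ⟨c, hc⟩ : ∃ c : F, U.1 l = l + c • n := by
    refine ⟨φ.1 (U.1 l) (.inl 1), φ.1.injective ?_⟩
    rw [hφl.add, sml hφl, f1, f2]
    have a1 : φ.1 (U.1 l) (.inl 0) = 1 := by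
      have := congrFun y1 (.inl 1)
      simpa [omul_l1, bs] using this
    have a2 : φ.1 (U.1 l) (.inr 1) = 0 := by
      have := congrFun y1 (.inr 0)
      simpa [omul_r0, bs] using this
    have a3 : φ.1 (U.1 l) (.inr 0) = 0 := by
      have := congrFun y2 (.inl 1)
      simpa [omul_l1, bs] using this
    apply ext8 <;> simp [bs, a1, a2, a3, y3, y4, y5, y6]
  have hone : U.1 (one8 F) = one8 F := aut_one hU
  have hone' : φ.1 (one8 F) = one8 F := aut_one hφ
  have hc0 : c ≠ 0 := by
    rintro rfl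
    rw [zero_smul, add_zero] at hc
    -- `U` is trivial on `A`
    obtain ⟨x, hx, hUx⟩ := hne
    apply hUx
    -- the element `r₁`
    obtain ⟨ρ, hρ, hρ'⟩ : ∃ ρ ∈ A, φ.1 ρ = bs (.inr 1) := by
      refine ⟨φ.1.symm (bs (.inr 1)), ?_, φ.1.apply_symm_apply _⟩
      rw [← f3, φ.1.apply_symm_apply]
      exact ⟨rfl, rfl, rfl, rfl⟩
    have hρ1 : omul ρ l = ρ := by
      apply φ.1.injective
      rw [hφ, f1, hρ']
      apply ext8 <;> simp [omul_l0, omul_l1, omul_l2, omul_l3, omul_r0, omul_r1, omul_r2, omul_r3, bs]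
    have hρ2 : omul l ρ = 0 := by
      apply φ.1.injective
      rw [hφ, f1, hρ', hφl.map_zero]
      apply ext8 <;> simp [omul_l0, omul_l1, omul_l2, omul_l3, omul_r0, omul_r1, omul_r2, omul_r3, bs]
    have hρ3 : polar (plusForm 4 F) n ρ = 1 := by
      rw [← pol hφl, f2, hρ', polar8]
      simp [bs]
    have z1 : omul (φ.1 (U.1 ρ)) (bs (.inl 0)) = φ.1 (U.1 ρ) := by
      have h1 := congrArg (fun z => φ.1 (U.1 z)) hρ1
      change φ.1 (U.1 (omul ρ l)) = φ.1 (U.1 ρ) at h1
      rw [hU, hφ, hc, f1] at h1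
      exact h1
    have z2 : omul (bs (.inl 0)) (φ.1 (U.1 ρ)) = 0 := by
      have h1 := congrArg (fun z => φ.1 (U.1 z)) hρ2
      change φ.1 (U.1 (omul l ρ)) = φ.1 (U.1 0) at h1
      rw [hU, hφ, hc, f1, hUl.map_zero, hφl.map_zero] at h1
      exact h1
    obtain ⟨z3, z4, z5, z6⟩ := (f3 (U.1 ρ)).2 (hUA ρ hρ)
    have z7 : φ.1 (U.1 ρ) (.inr 1) = 1 := by
      have h1 := pol hUl n ρ
      rw [hUn, hρ3, ← pol hφl, f2, polar8] at h1
      simpa [bs] using h1
    have z8 : φ.1 (U.1 ρ) (.inl 0) = 0 := by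
      have := congrFun z2 (.inl 0)
      simpa [omul_l0, bs] using this
    have z9 : φ.1 (U.1 ρ) (.inl 1) = 0 := by
      have := congrFun z2 (.inl 1)
      simpa [omul_l1, bs] using this
    have z10 : φ.1 (U.1 ρ) (.inr 0) = 0 := by
      have := congrFun z1 (.inr 0)
      simpa [omul_r0, bs] using this.symm
    have z11 : U.1 ρ = ρ := by
      apply φ.1.injective
      rw [hρ']
      apply ext8 <;> simp [bs, z3, z4, z5, z6, z7, z8, z9, z10]
    obtain ⟨x3, x4, x5, x6⟩ := (f3 x).2 hx
    have hxd : x = (φ.1 x (.inl 0)) • l + (φ.1 x (.inl 1)) • n + (φ.1 x (.inr 0)) • (one8 F - l) +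
        (φ.1 x (.inr 1)) • ρ := by
      apply φ.1.injective
      rw [hφl.add, hφl.add, hφl.add, sml hφl, sml hφl, sml hφl, sml hφl, hφl.sub, f1, f2, hρ', hone']
      apply ext8 <;> simp [bs, one8, x3, x4, x5, x6]
    rw [hxd, hUl.add, hUl.add, hUl.add, sml hUl, sml hUl, sml hUl, sml hUl, hUl.sub, hc, hUn, hone, z11]
  -- rescaling
  obtain ⟨ψ, hψ, hψl, g1, g2, g3⟩ := exists_frame A hA4 hA1 hAm hl (A.smul_mem (-c) hn) (A.smul_mem (-c⁻¹) hr) hl1 hl0
    (by rw [omul_smul, hln]) (by rw [smul_omul, hnl, smul_zero]) (by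
      rw [pol_smul_left, pol_smul_right, hnr]
      field_simp)
  have i1 : ψ⁻¹.1 (bs (.inl 0)) = l := by
    rw [← g1]
    exact ψ.1.symm_apply_apply l
  have i2 : ψ⁻¹.1 (bs (.inl 1)) = -c • n := by
    rw [← g2]
    exact ψ.1.symm_apply_apply _
  refine ⟨ψ, hψ, hψl, g3, ?_, ?_⟩
  · rw [i1, hc, ← g1, ← g2, ← hψl.sub]
    congr 1
    rw [neg_smul, sub_neg_eq_add]
  · rw [i2, sml hUl, hUn, g2]

end Cfsg.Agent.H188.RC.IDNormal
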