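import Cfsg.Agent.H188.RC.InvA
import Cfsg.Agent.H338.RC.N2
import Cfsg.Agent.H31.RC.PslM
import Cfsg.Agent.H256.RC.ZBase

/-!
# S3510, type iii, box INV (C) (helper188)

`dead_one` : in characteristic `≠ 2` the twisted environment `T3` has no member of order two fixing the unit.
`M` = the octonion automorphisms which are trivial on `Fix t`.
-/

set_option autoImplicit false
open Cfsg

namespace Cfsg.Agent.H188.RC.Inv

open Module QuadraticMap MulAction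
open Cfsg.Agent.LieClassical.OrthCore Cfsg.Agent.LieClassical.OrthTrans
open Cfsg.Agent.LieClassical.OrthSimple Cfsg.Agent.ClassicalGeometry.OrthSemi
open Cfsg.Agent.ClassicalGeometry.OrthAut1 Cfsg.Agent.H106.RC Cfsg.Agent.H93.RC Cfsg.Agent.H566.RC
open Cfsg.Agent.LieClassical.QuadForms Cfsg.Agent.ClassicalGeometry.TrialityOct
open Cfsg.Agent.ClassicalGeometry.Triality Cfsg.Agent.ClassicalGeometry.TrialitySpaces
open Cfsg.Agent.H198.TriBase Cfsg.Agent.H198.TriAut Cfsg.Agent.H206.Balance Cfsg.Agent.H198.TriDia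
open Cfsg.Agent.H198 Cfsg.Agent.H864.RC
open Cfsg.Agent.LieClassical.SLTwoUnipotent (u l)
open Matrix (SpecialLinearGroup)
open Cfsg.Agent.UGT.U2.FOne.Orth (Four)
open Cfsg.Agent.H188.RC.IDNormal Cfsg.Agent.H195.RC

variable {F : Type} [Field F]

/-! ### Group theory -/

theorem norm_of_conj {G : Type} [Group G] [Finite G] {M : Subgroup G} {x : G} (h : ∀ m ∈ M, x * m * x⁻¹ ∈ M) :
    x ∈ Subgroup.normalizer (M : Set G) := by
  have h1 : M.map (MulAut.conj x).toMonoidHom ≤ M := by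
    rintro _ ⟨m, hm, rfl⟩
    exact h m hm
  have h2 : M.map (MulAut.conj x).toMonoidHom = M := by
    apply Subgroup.eq_of_le_of_card_ge h1
    rw [Subgroup.card_map_of_injective (MulAut.conj x).injective]
  rw [Subgroup.mem_normalizer_iff]
  intro m
  constructor
  · exact h m
  · intro hm
    have hm' : x * m * x⁻¹ ∈ M := hm
    rw [← h2] at hm'
    obtain ⟨k, hk, hk'⟩ := hm'
    have : k = m := (MulAut.conj x).injective hk'
    rwa [← this]

/-- the quotient map of the image of an injective `f : SL₂(F) → G` -/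
noncomputable def pr {G : Type} [Group G] (f : SpecialLinearGroup (Fin 2) F →* G) (hf : Function.Injective f) :
    f.range →* Matrix.ProjectiveSpecialLinearGroup (Fin 2) F :=
  (QuotientGroup.mk' (Subgroup.center (SpecialLinearGroup (Fin 2) F))).comp (MonoidHom.ofInjective hf).symm.toMonoidHom

theorem pr_surj {G : Type} [Group G] (f : SpecialLinearGroup (Fin 2) F →* G) (hf : Function.Injective f) :
    Function.Surjective (pr f hf) := by
  have h1 : Function.Surjective ((MonoidHom.ofInjective hf).symm.toMonoidHom) := (MonoidHom.ofInjective hf).symm.surjective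
  exact (QuotientGroup.mk'_surjective _).comp h1

theorem pr_ker {G : Type} [Group G] (f : SpecialLinearGroup (Fin 2) F →* G) (hf : Function.Injective f) :
    (pr f hf).ker ≤ Subgroup.center f.range := by
  intro m hm
  have h1 : (MonoidHom.ofInjective hf).symm m ∈ Subgroup.center (SpecialLinearGroup (Fin 2) F) :=
    (QuotientGroup.eq_one_iff _).1 hm
  rw [Subgroup.mem_center_iff] at h1 ⊢
  intro k
  apply (MonoidHom.ofInjective hf).symm.injective
  rw [map_mul, map_mul]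
  exact h1 _

/-! ### The action of the members -/

section env

variable {G Ω ι : Type} [Group G] [MulAction G Ω] {N : Subgroup G} {hG : Good (plusForm 4 F)}
  {κ : P8 F →* G} {s : F ≃+* F} {x₁ : G} {x : ι → G} {r : ι → ℕ} {g : ι → (V8 F ≃ₗ[F] V8 F)}

theorem isom_E (m : ↥(E (plusForm 4 F))) (v : V8 F) : plusForm 4 F ((m : V8 F ≃ₗ[F] V8 F) v) = plusForm 4 F v :=
  E_le_O m.2 v

/-- elements of `E Q` fixing the unit commute with conjugation -/
theorem conj_commE {m : ↥(E (plusForm 4 F))} (h1 : (m : V8 F ≃ₗ[F] V8 F) (one8 F) = one8 F) (x : V8 F) :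
    (m : V8 F ≃ₗ[F] V8 F) (oconj x) = oconj ((m : V8 F ≃ₗ[F] V8 F) x) := by
  apply conj_comm (m := fun v => (m : V8 F ≃ₗ[F] V8 F) v) (fun x y => map_sub _ x y) (fun c x => map_smul _ c x) ?_ h1
  intro x
  have h2 := polar_t (isom_E m) x (one8 F)
  rw [h1] at h2
  exact h2

/-- the field automorphism conjugate -/
theorem conjE_fG (h3 : ∀ a, s (s (s a)) = a) (m : ↥(E (plusForm 4 F))) (v : V8 F) :
    (conjE _ (fG s) m : V8 F ≃ₗ[F] V8 F) v = cf s ((m : V8 F ≃ₗ[F] V8 F) (cf s (cf s v))) := by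
  rw [coe_conjE, conjLin_apply]
  have h1 : ((fG s).1⁻¹ : Equiv.Perm (V8 F)) v = cf s (cf s v) := by
    have h2 : (fG s).1⁻¹ v = (fG s).1.symm v := rfl
    rw [h2, Equiv.symm_apply_eq]
    exact (cf3 h3 v).symm
  rw [h1]
  rfl

theorem conjE_fG' (h3 : ∀ a, s (s (s a)) = a) (m : ↥(E (plusForm 4 F))) (v : V8 F) :
    (conjE _ (fG s) (conjE _ (fG s) m) : V8 F ≃ₗ[F] V8 F) v = cf s (cf s ((m : V8 F ≃ₗ[F] V8 F) (cf s v))) := by
  rw [conjE_fG h3, conjE_fG h3, cf3 h3]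

/-- `S t m` : an octonion automorphism which is trivial on the fixed space of `t` -/
def SM (t : V8 F ≃ₗ[F] V8 F) (m : ↥(E (plusForm 4 F))) : Prop :=
  (∀ a, t a = a → (m : V8 F ≃ₗ[F] V8 F) a = a) ∧
    ∀ x y, (m : V8 F ≃ₗ[F] V8 F) (omul x y) = omul ((m : V8 F ≃ₗ[F] V8 F) x) ((m : V8 F ≃ₗ[F] V8 F) y)

theorem SM.fg {t : V8 F ≃ₗ[F] V8 F} (h3 : ∀ a, s (s (s a)) = a) (hts : ∀ v, t (cf s v) = cf s (t v))
    {m : ↥(E (plusForm 4 F))} (hm : SM t m) : SM t (conjE _ (fG s) m) := by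
  refine ⟨fun a ha => ?_, fun x y => ?_⟩
  · rw [conjE_fG h3, hm.1 _ (by rw [hts, hts, ha]), cf3 h3]
  · rw [conjE_fG h3, conjE_fG h3, conjE_fG h3, cf_omul, cf_omul, hm.2, cf_omul]

/-- the triple of an automorphism -/
theorem SM.tw {t : V8 F ≃ₗ[F] V8 F} (h3 : ∀ a, s (s (s a)) = a) (h1 : t (one8 F) = one8 F)
    {m : ↥(E (plusForm 4 F))} (hm : SM t m) (u w : V8 F) :
    (m : V8 F ≃ₗ[F] V8 F) (dia (fG s) u w) = dia (fG s) ((conjE _ (fG s) m : V8 F ≃ₗ[F] V8 F) u)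
      ((conjE _ (fG s) (conjE _ (fG s) m) : V8 F ≃ₗ[F] V8 F) w) := by
  rw [conjE_fG h3, conjE_fG' h3]
  exact tw_of_aut h3 hm.2 (conj_commE (hm.1 _ h1)) u w

/-- the action of `x₁` -/
theorem x1_conj (h : T3 hG N κ s Ω x₁ x r g) {t : V8 F ≃ₗ[F] V8 F} (h1 : t (one8 F) = one8 F)
    {m : ↥(E (plusForm 4 F))} (hm : SM t m) : x₁ * up κ m * x₁⁻¹ = up κ (conjE _ (fG s) m) := by
  have e1 : xt hG (fG s) * Psi _ (tg _ m) * (xt hG (fG s))⁻¹ = Psi _ (tg _ (conjE _ (fG s) m)) := by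
    apply xt_conj_tri hG (tri_fG s) (M'' := tg _ (conjE _ (fG s) (conjE _ (fG s) m)))
    intro u w
    exact hm.tw h.cube h1 u w
  have e2 : La κ (up κ m) (Psi _ (tg _ m)) := La.lf.2 (Lf.tg _)
  have e3 := (h.tri.mul e2).mul h.tri.inv
  rw [e1] at e3
  exact La.eq h.env h.rp e3 (La.lf.2 (Lf.tg _))

/-- the action of `AutD` -/
theorem SM.aut {t : V8 F ≃ₗ[F] V8 F} (h3 : ∀ a, s (s (s a)) = a) (h1 : t (one8 F) = one8 F)
    {m : ↥(E (plusForm 4 F))} (hm : SM t m) (hts : ∀ v, t (cf s v) = cf s (t v)) {c : ↥(E (plusForm 4 F))}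
    (hc : (c : V8 F ≃ₗ[F] V8 F) ∈ AutD (fG s)) (hct : ∀ v, (c : V8 F ≃ₗ[F] V8 F) (t v) = t ((c : V8 F ≃ₗ[F] V8 F) v)) :
    SM t (c * m * c⁻¹) := by
  have hci : ∀ v, (c : V8 F ≃ₗ[F] V8 F).symm (t v) = t ((c : V8 F ≃ₗ[F] V8 F).symm v) := by
    intro v
    rw [LinearEquiv.symm_apply_eq, hct, LinearEquiv.apply_symm_apply]
  have happ : ∀ (k : ↥(E (plusForm 4 F))) v, ((c * k * c⁻¹ : ↥(E (plusForm 4 F))) : V8 F ≃ₗ[F] V8 F) v =
      (c : V8 F ≃ₗ[F] V8 F) ((k : V8 F ≃ₗ[F] V8 F) ((c : V8 F ≃ₗ[F] V8 F).symm v)) := fun k v => rfl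
  have hfix : ∀ (k : ↥(E (plusForm 4 F))), (∀ a, t a = a → (k : V8 F ≃ₗ[F] V8 F) a = a) →
      ∀ a, t a = a → ((c * k * c⁻¹ : ↥(E (plusForm 4 F))) : V8 F ≃ₗ[F] V8 F) a = a := by
    intro k hk a ha
    rw [happ, hk _ (by rw [← hci, ha]), LinearEquiv.apply_symm_apply]
  have hm1 := hm.fg h3 hts
  have hm2 := hm1.fg h3 hts
  refine ⟨hfix m hm.1, ?_⟩
  have key := aut_of_tw h3 (n := fun v => ((c * m * c⁻¹ : ↥(E (plusForm 4 F))) : V8 F ≃ₗ[F] V8 F) v)
    (n' := fun v => ((c * conjE _ (fG s) m * c⁻¹ : ↥(E (plusForm 4 F))) : V8 F ≃ₗ[F] V8 F) v)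
    (n'' := fun v => ((c * conjE _ (fG s) (conjE _ (fG s) m) * c⁻¹ : ↥(E (plusForm 4 F))) : V8 F ≃ₗ[F] V8 F) v)
    (by
      intro u w
      change ((c * m * c⁻¹ : ↥(E (plusForm 4 F))) : V8 F ≃ₗ[F] V8 F) (dia (fG s) u w) =
        dia (fG s) (((c * conjE _ (fG s) m * c⁻¹ : ↥(E (plusForm 4 F))) : V8 F ≃ₗ[F] V8 F) u)
          (((c * conjE _ (fG s) (conjE _ (fG s) m) * c⁻¹ : ↥(E (plusForm 4 F))) : V8 F ≃ₗ[F] V8 F) w)
      rw [happ, happ, happ, ← hc.2, ← hm.tw h3 h1]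
      congr 2
      rw [LinearEquiv.symm_apply_eq, hc.2, LinearEquiv.apply_symm_apply, LinearEquiv.apply_symm_apply])
    (hfix _ hm1.1 _ h1) (hfix _ hm2.1 _ h1) (conj_commE (hfix m hm.1 _ h1))
  exact key.2.2

end env

end Cfsg.Agent.H188.RC.Inv
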