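import Cfsg.Agent.H93.RC.Defs
import Cfsg.Agent.H106.RC.MRule
import Cfsg.Agent.GenOrth.Normal

/-!
# S3510, row F, box F2 (Theorem A) (helper188)

`W` a proper good subspace invariant under the lifts `M i` of the members `x i` of a cover, not all of them scalar on
`W`. The long root elements of `W` together with the `x i` which are scalar on `W` form a cover.
-/

set_option autoImplicit false
open Cfsg

namespace Cfsg.Agent.H188.RC

open QuadraticMap MulAction
open Cfsg.Agent.LieClassical.OrthCore Cfsg.Agent.LieClassical.OrthTrans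
open Cfsg.Agent.LieClassical.OrthSimple Cfsg.Agent.ClassicalGeometry.OrthSemi
open Cfsg.Agent.ClassicalGeometry.OrthAut1 Cfsg.Agent.H106.RC Cfsg.Agent.H93.RC
open Cfsg.Agent.GenOrth

section lin

variable {F V : Type*} [Field F] [AddCommGroup V] [Module F V] {Q : QuadraticForm F V} {W : Submodule F V}

theorem polar_comp (x y : W) : polar (Q.comp W.subtype) x y = polar Q (x : V) y := rfl

/-- restriction of a semisimilitude to an invariant subspace -/
theorem exists_restr [Finite V] {M : Equiv.Perm V} {σ : F ≃+* F} {c : F} (hM : IsSS Q σ c M)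
    (h : ∀ v ∈ W, M v ∈ W) :
    ∃ N : Equiv.Perm W, IsSS (Q.comp W.subtype) σ c N ∧ ∀ w : W, ((N w : W) : V) = M w := by
  have hinj : Function.Injective (fun w : W => (⟨M w, h w w.2⟩ : W)) := by
    intro a b hab
    exact Subtype.ext (M.injective (congrArg Subtype.val hab))
  refine ⟨Equiv.ofBijective _ (Finite.injective_iff_bijective.mp hinj), ⟨hM.ne, ?_, ?_, ?_⟩, fun w => rfl⟩
  · intro u v
    exact Subtype.ext (hM.add u v)
  · intro a v
    exact Subtype.ext (hM.smul a v)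
  · intro v
    exact hM.form v

/-- central elements are scalars -/
theorem scal_of_center (hG : Good Q) {g : ↥(E Q)} (hg : g ∈ Subgroup.center ↥(E Q)) :
    ∃ a : F, a ≠ 0 ∧ ∀ v, (g : V ≃ₗ[F] V) v = a • v := by
  have h1 : conjE Q (tg Q g) = 1 := by
    ext t : 1
    rw [conjE_tg, MulAut.one_apply, ← Subgroup.mem_center_iff.mp hg t, mul_inv_cancel_right]
  exact exists_scalar_of_conjE hG (tg Q g) h1

/-- `P Q` is not commutative -/
theorem not_comm_P (hG : Good Q) : ¬ IsMulCommutative (P Q) := by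
  intro hc
  have hs : IsSimpleGroup (P Q) := good_isSimpleGroup hG
  have h1 : commutator (P Q) = ⊤ := by
    have h2 : (commutator ↥(E Q)).map (QuotientGroup.mk' (Subgroup.center ↥(E Q))) = ⊤ := by
      rw [commutator_E hG, ← MonoidHom.range_eq_map]
      exact MonoidHom.range_eq_top.mpr (QuotientGroup.mk'_surjective _)
    rw [eq_top_iff, ← h2, commutator_def, Subgroup.map_commutator]
    exact Subgroup.commutator_mono le_top le_top
  have h3 : commutator (P Q) = ⊥ := by
    rw [commutator_def, Subgroup.commutator_eq_bot_iff_le_centralizer]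
    intro x _
    rw [Subgroup.mem_centralizer_iff]
    intro y _
    exact hc.is_comm.comm y x
  rw [h1] at h3
  have := hs.toNontrivial
  exact top_ne_bot h3

/-- two independent orthogonal singular vectors -/
theorem exists_plane (hG : Good Q) : ∃ u w : V, Q u = 0 ∧ Q w = 0 ∧ polar Q u w = 0 ∧ u ≠ 0 ∧ ∀ a : F, w ≠ a • u := by
  obtain ⟨x, y, hxy⟩ := hG.exists_hyp
  obtain ⟨z, w, hz, hz1, hz2, hz3, hz4⟩ := hG.exists_hyp2 hxy
  refine ⟨x, z, hxy.left, hz.left, hz1, hxy.left_ne, ?_⟩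
  rintro a rfl
  have := hz.pair
  rw [polar_smul_left, hz2, smul_zero] at this
  exact zero_ne_one this

section fd

variable [FiniteDimensional F V]

/-- the embedding of a nondegenerate subspace -/
noncomputable def embW (hW : Nondeg (Q.comp W.subtype)) : Emb Q (Q.comp W.subtype) :=
  ofLin W.subtype 1 one_ne_zero (fun x => by rw [one_mul]; rfl) hW

theorem embW_j (hW : Nondeg (Q.comp W.subtype)) (x : W) : (embW hW).j x = (x : V) := rfl

theorem embW_c (hW : Nondeg (Q.comp W.subtype)) : (embW hW).c = 1 := rfl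

/-- the projection commutes with the restriction -/
theorem π_restr (hW : Nondeg (Q.comp W.subtype)) {M : Equiv.Perm V} {σ : F ≃+* F} {c : F}
    (hM : IsSS Q σ c M) {N : Equiv.Perm W} (hN : IsSS (Q.comp W.subtype) σ c N)
    (hNM : ∀ w : W, ((N w : W) : V) = M w) (v : V) : (embW hW).π (M v) = N ((embW hW).π v) := by
  rw [← sub_eq_zero]
  apply hW
  intro y
  obtain ⟨x, rfl⟩ := N.surjective y
  have h1 := (embW hW).adj (N x) (M v)
  have h2 := (embW hW).adj x v
  rw [embW_j, embW_c, one_mul] at h1 h2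
  rw [hNM, hM.polar, h2, ← hN.polar] at h1
  rw [polar_comm, polar_sub_right, ← h1, sub_self]

/-- conjugation of the extensions -/
theorem conjE_extE (hW : Nondeg (Q.comp W.subtype)) (M : Gam Q) (N : Gam (Q.comp W.subtype))
    (hNM : ∀ w : W, ((N.1 w : W) : V) = M.1 w) (hπ : ∀ v, (embW hW).π (M.1 v) = N.1 ((embW hW).π v))
    (g : ↥(E (Q.comp W.subtype))) :
    conjE Q M ((embW hW).extE g) = (embW hW).extE (conjE (Q.comp W.subtype) N g) := by
  apply Subtype.ext
  rw [coe_conjE, Emb.extE_coe, Emb.extE_coe, coe_conjE]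
  apply LinearEquiv.ext
  intro v
  obtain ⟨v, rfl⟩ := M.1.surjective v
  rw [conjLin_apply', Emb.ext_apply, Emb.ext_apply, hπ, conjLin_apply', add_of_mem M.2]
  congr 1
  rw [embW_j, embW_j, ← hNM]
  congr 1
  obtain ⟨σ, c, hN⟩ := N.2
  exact hN.sub _ _

/-- a nonzero vector orthogonal to a proper nondegenerate subspace -/
theorem exists_perp (hW : Nondeg (Q.comp W.subtype)) (hWt : W ≠ ⊤) :
    ∃ v : V, v ≠ 0 ∧ (embW hW).π v = 0 := by
  obtain ⟨v, hv⟩ : ∃ v : V, v ∉ W := by
    by_contra hno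
    push Not at hno
    exact hWt (eq_top_iff.mpr fun v _ => hno v)
  refine ⟨v - (embW hW).j ((embW hW).π v), ?_, ?_⟩
  · intro h
    apply hv
    rw [sub_eq_zero.mp h, embW_j]
    exact Subtype.mem _
  · rw [map_sub, Emb.π_j, sub_self]

/-- extensions of elements are central only if they are trivial -/
theorem eq_one_of_extE_center (hG : Good Q) (hW : Nondeg (Q.comp W.subtype)) (hWt : W ≠ ⊤)
    {g : ↥(E (Q.comp W.subtype))} (hg : (embW hW).extE g ∈ Subgroup.center ↥(E Q)) : g = 1 := by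
  obtain ⟨a, ha, h⟩ := scal_of_center hG hg
  obtain ⟨v, hv0, hv⟩ := exists_perp hW hWt
  have h1 := h v
  rw [Emb.extE_coe, Emb.ext_of_π_eq_zero _ _ hv] at h1
  have ha1 : a = 1 := by
    have h2 : (1 - a) • v = 0 := by rw [sub_smul, one_smul, ← h1, sub_self]
    rcases smul_eq_zero.mp h2 with h3 | h3
    · exact (sub_eq_zero.mp h3).symm
    · exact (hv0 h3).elim
  apply (embW hW).extE_injective
  rw [map_one]
  apply Subtype.ext
  apply LinearEquiv.ext
  intro w
  rw [h w, ha1, one_smul]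
  rfl

/-- Siegel elements of `W` -/
theorem extE_sg (hW : Nondeg (Q.comp W.subtype)) {u w : W} (hu : Q.comp W.subtype u = 0)
    (huw : polar (Q.comp W.subtype) u w = 0) (hu' : Q (u : V) = 0) (huw' : polar Q (u : V) w = 0) :
    (embW hW).extE (AutOrth.SemiSim.sg (Q.comp W.subtype) u w hu huw) = AutOrth.SemiSim.sg Q (u : V) w hu' huw' := by
  apply Subtype.ext
  rw [Emb.extE_coe]
  have h1 : polar Q ((embW hW).j u) ((embW hW).c⁻¹ • (embW hW).j w) = 0 := by
    rw [embW_c, inv_one, one_smul]; exact huw'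
  refine ((embW hW).ext_siegel hu huw hu' h1).trans ?_
  exact siegel_congr hu' h1 hu' huw' rfl (by rw [embW_c, inv_one, one_smul]; rfl)

end fd

end lin

section main

variable {F V : Type*} [Field F] [Finite F] [AddCommGroup V] [Module F V] [FiniteDimensional F V]
  {Q : QuadraticForm F V} {G Ω : Type*} [Group G] [MulAction G Ω]
  {N : Subgroup G} {ρ : ↥(E Q) →* G} {W : Submodule F V}

/-- the homomorphism `E (Q|W) →* G` -/
noncomputable def phi (ρ : ↥(E Q) →* G) (hW : Nondeg (Q.comp W.subtype)) : ↥(E (Q.comp W.subtype)) →* G :=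
  ρ.comp (embW hW).extE

theorem phi_apply (hW : Nondeg (Q.comp W.subtype)) (g : ↥(E (Q.comp W.subtype))) :
    phi ρ hW g = ρ ((embW hW).extE g) := rfl

theorem phi_injective (hG : Good Q) (hρ : Rep Q N ρ) (hW : Nondeg (Q.comp W.subtype)) (hWt : W ≠ ⊤) :
    Function.Injective (phi ρ hW) := by
  rw [injective_iff_map_eq_one]
  intro g hg
  apply eq_one_of_extE_center hG hW hWt
  rw [← hρ.ker, MonoidHom.mem_ker]
  exact hg

/-- conjugation in `M` -/
theorem phi_conj (hW : Nondeg (Q.comp W.subtype)) {x : G} {M : Gam Q} (hl : Lf ρ x M)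
    (hinv : ∀ v ∈ W, M.1 v ∈ W) :
    ∃ L : Gam (Q.comp W.subtype), (∀ w : W, ((L.1 w : W) : V) = M.1 w) ∧
      ∀ g, x * phi ρ hW g * x⁻¹ = phi ρ hW (conjE (Q.comp W.subtype) L g) := by
  have hfin : Finite V := Module.finite_of_finite F
  obtain ⟨σ, c, hM⟩ := M.2
  obtain ⟨L, hL, hLM⟩ := exists_restr hM hinv
  refine ⟨⟨L, σ, c, hL⟩, hLM, fun g => ?_⟩
  rw [phi_apply, hl, phi_apply, conjE_extE hW M ⟨L, σ, c, hL⟩ hLM (π_restr hW hM hL hLM)]

/-- an element centralises `M` iff its lift is scalar on `W` -/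
theorem cent_iff (hG : Good Q) (hρ : Rep Q N ρ) (hW : Good (Q.comp W.subtype)) (hWt : W ≠ ⊤) {x : G} {M : Gam Q}
    (hl : Lf ρ x M) (hinv : ∀ v ∈ W, M.1 v ∈ W) :
    (∀ m ∈ (phi ρ hW.nondeg).range, x * m = m * x) ↔ ScalOn M W := by
  obtain ⟨L, hLM, hL⟩ := phi_conj hW.nondeg hl hinv
  constructor
  · intro h
    have h1 : conjE (Q.comp W.subtype) L = 1 := by
      ext g : 1
      apply phi_injective hG hρ hW.nondeg hWt
      rw [← hL, h _ ⟨g, rfl⟩, mul_inv_cancel_right, MulAut.one_apply]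
    obtain ⟨a, ha, h2⟩ := exists_scalar_of_conjE hW L h1
    refine ⟨a, ha, fun v hv => ?_⟩
    have h3 := congrArg Subtype.val (h2 ⟨v, hv⟩)
    rw [hLM] at h3
    exact h3
  · rintro ⟨a, ha, h⟩ _ ⟨g, rfl⟩
    have h1 : conjE (Q.comp W.subtype) L = 1 :=
      conjE_of_scal ⟨a, ha, fun v => Subtype.ext (by rw [hLM, h v v.2]; rfl)⟩
    have h2 := hL g
    rw [h1, MulAut.one_apply, mul_inv_eq_iff_eq_mul] at h2
    exact h2

/-- **The M-rule for `W`.** -/
theorem mrule_W [Finite G] (hG : Good Q) (hρ : Rep Q N ρ)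
    {ι : Type*} [Finite ι] {x : ι → G} {M : ι → Gam Q} {r : ι → ℕ} (hl : ∀ i, Lf ρ (x i) (M i))
    (hr : ∀ i, (r i).Prime) (hx : ∀ i, x i ^ r i = 1)
    (hc : ∀ i j, x i * x j = x j * x i) (hcov : Cov Ω x)
    (hW : Good (Q.comp W.subtype)) (hWt : W ≠ ⊤)
    (hinv : ∀ i, ∀ v ∈ W, (M i).1 v ∈ W) (hne : ∃ i, ¬ ScalOn (M i) W)
    (hinj : Set.InjOn r {i | ¬ ScalOn (M i) W})
    (hRC : RC (P (Q.comp W.subtype)) ∨ {i | ¬ ScalOn (M i) W}.Subsingleton) (ω : Ω) :
    (phi ρ hW.nondeg).range ≤ stabilizer G ω ∨ ∃ j, ScalOn (M j) W ∧ x j • ω = ω := by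
  classical
  by_cases hω : ∃ j, ScalOn (M j) W ∧ x j • ω = ω
  · exact Or.inr hω
  left
  push Not at hω
  have hφ := phi_injective (ρ := ρ) hG hρ hW.nondeg hWt
  set φ := phi ρ hW.nondeg with hφdef
  have hperf : ⁅φ.range, φ.range⁆ = φ.range := by
    have h1 : commutator ↥(E (Q.comp W.subtype)) = ⊤ := commutator_E hW
    rw [commutator_def] at h1
    rw [MonoidHom.range_eq_map φ, ← Subgroup.map_commutator, h1]
  let π : ↥φ.range →* P (Q.comp W.subtype) :=
    (QuotientGroup.mk' (Subgroup.center ↥(E (Q.comp W.subtype)))).comp (MonoidHom.ofInjective hφ).symm.toMonoidHom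
  have hπ : Function.Surjective π :=
    (QuotientGroup.mk'_surjective _).comp (MonoidHom.ofInjective hφ).symm.surjective
  have hker : π.ker ≤ Subgroup.center ↥φ.range := by
    intro m hm
    rw [MonoidHom.mem_ker] at hm
    have h1 : (MonoidHom.ofInjective hφ).symm m ∈ Subgroup.center ↥(E (Q.comp W.subtype)) :=
      (QuotientGroup.eq_one_iff _).mp hm
    rw [Subgroup.mem_center_iff]
    intro n
    apply (MonoidHom.ofInjective hφ).symm.injective
    rw [map_mul, map_mul]
    exact Subgroup.mem_center_iff.mp h1 _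
  -- the subfamily
  let K : Set ι := {i | ¬ ScalOn (M i) W}
  have hnorm : ∀ i, x i ∈ Subgroup.normalizer ((φ.range : Subgroup G) : Set G) := by
    intro i
    obtain ⟨L, -, hL⟩ := phi_conj hW.nondeg (hl i) (hinv i)
    rw [Subgroup.mem_normalizer_iff]
    intro m
    constructor
    · rintro ⟨g, rfl⟩
      exact ⟨_, (hL g).symm⟩
    · rintro ⟨g, hg⟩
      refine ⟨(conjE (Q.comp W.subtype) L)⁻¹ g, ?_⟩
      have h2 := hL ((conjE (Q.comp W.subtype) L)⁻¹ g)
      rw [MulAut.apply_inv_self] at h2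
      have h3 : x i * φ ((conjE (Q.comp W.subtype) L)⁻¹ g) * (x i)⁻¹ = x i * m * (x i)⁻¹ := h2.trans hg
      exact mul_left_cancel (mul_right_cancel h3)
  have hcent : ∀ i, (∀ m ∈ φ.range, x i * m = m * x i) ↔ ScalOn (M i) W := fun i =>
    cent_iff hG hρ hW hWt (hl i) (hinv i)
  have hcovK : ∀ m ∈ φ.range, ∃ i : K, x i • m • ω = m • ω := by
    intro m hm
    obtain ⟨i, hi⟩ := hcov (m • ω)
    by_cases hs : ScalOn (M i) W
    · exfalso
      apply hω i hs
      rw [← mul_smul, (hcent i).mpr hs m hm, mul_smul] at hi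
      exact smul_left_cancel m hi
    · exact ⟨⟨i, hs⟩, hi⟩
  have hrule : φ.range ≤ stabilizer G ω ∨
      ∃ j : K, (∀ m ∈ φ.range, x j * m = m * x j) ∧ x j • ω = ω := by
    rcases hRC with h | h
    · exact mrule_RC (good_isSimpleGroup hW) (not_comm_P hW) (fun i : K => x i) (fun i : K => r i)
        (fun i => hr i) (fun i j hij => Subtype.ext (hinj i.2 j.2 hij)) (fun i => hx i) (fun i j => hc i j)
        φ.range hperf π hπ hker (fun i => hnorm i) h ω hcovK
    · obtain ⟨i₀, hi₀⟩ := hne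
      exact mrule_one (good_isSimpleGroup hW) (not_comm_P hW) (fun i : K => x i) (fun i : K => r i)
        (fun i => hr i) (fun i j hij => Subtype.ext (hinj i.2 j.2 hij)) (fun i => hx i) (fun i j => hc i j)
        φ.range hperf π hπ hker ⟨i₀, hi₀⟩ (hnorm i₀) (fun i hi => (hi (Subtype.ext (h i.2 hi₀))).elim) ω hcovK
  rcases hrule with h | ⟨j, hj, -⟩
  · exact h
  · exact (j.2 ((hcent j).mp hj)).elim

end main

section boxA

universe u v w z

variable {F : Type u} {V : Type v} {G : Type w} {Ω : Type*} {ι : Type z} [Field F] [Finite F] [AddCommGroup V]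
  [Module F V] [FiniteDimensional F V] {Q : QuadraticForm F V} [Group G] [Finite G] [MulAction G Ω] [Nonempty Ω]
  {N : Subgroup G} {ρ : ↥(E Q) →* G}

/-- **BOX F2 (Theorem A)** from box F1 (the hypothesis `hLR`). -/
theorem box_A_of (hG : Good Q) (hρ : Rep Q N ρ) {p : ℕ}
    (hLR : ∀ (κ : Type z) [Finite κ] {y : κ → G} {L : κ → Gam Q} {s : κ → ℕ}, (∀ i, Lf ρ (y i) (L i)) →
      (∀ i, (s i).Prime) → (∀ i, s i ≠ p) → (∀ i, y i ^ s i = 1) → (∀ i, y i ≠ 1) →
      (∀ i j, y i * y j = y j * y i) → ∀ {u w : V} (hu : Q u = 0) (_ : Q w = 0) (huw : polar Q u w = 0),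
      u ≠ 0 → (∀ a : F, w ≠ a • u) →
      (∀ i, ∀ v ∈ Submodule.span F {u, w}, (L i).1 v ∈ Submodule.span F {u, w}) →
      (∀ ω : Ω, ρ (AutOrth.SemiSim.sg Q u w hu huw) • ω = ω ∨ ∃ i, y i • ω = ω) → False)
    [Finite ι] {x : ι → G} {M : ι → Gam Q} {r : ι → ℕ} (hl : ∀ i, Lf ρ (x i) (M i))
    (hr : ∀ i, (r i).Prime) (hx : ∀ i, x i ^ r i = 1) (hx1 : ∀ i, x i ≠ 1)
    (hc : ∀ i j, x i * x j = x j * x i) (hcov : Cov Ω x)
    (W : Submodule F V) (hW : Good (Q.comp W.subtype)) (hWt : W ≠ ⊤)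
    (hinv : ∀ i, ∀ v ∈ W, (M i).1 v ∈ W) (hne : ∃ i, ¬ ScalOn (M i) W)
    (hinj : Set.InjOn r {i | ¬ ScalOn (M i) W}) (hp : ∀ i, ScalOn (M i) W → r i ≠ p)
    (hRC : RC (P (Q.comp W.subtype)) ∨ {i | ¬ ScalOn (M i) W}.Subsingleton) : False := by
  obtain ⟨u, w, hu, hw, huw, hu0, hind⟩ := exists_plane hW
  have hu' : Q (u : V) = 0 := hu
  have hw' : Q (w : V) = 0 := hw
  have huw' : polar Q (u : V) w = 0 := huw
  refine hLR {i : ι // ScalOn (M i) W} (y := fun i => x i) (L := fun i => M i) (s := fun i => r i)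
    (fun i => hl i) (fun i => hr i) (fun i => hp i i.2) (fun i => hx i) (fun i => hx1 i) (fun i j => hc i j)
    hu' hw' huw' (fun h => hu0 (Subtype.ext h)) (fun a h => hind a (Subtype.ext h)) ?_ ?_
  · rintro ⟨i, a, ha, hi⟩ v hv
    have hvW : v ∈ W := by
      have h1 : Submodule.span F {(u : V), (w : V)} ≤ W := by
        rw [Submodule.span_le]
        rintro z (rfl | rfl)
        · exact u.2
        · exact w.2
      exact h1 hv
    show (M i).1 v ∈ _
    rw [hi v hvW]
    exact Submodule.smul_mem _ _ hv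
  · intro ω
    rcases mrule_W hG hρ hl hr hx hc hcov hW hWt hinv hne hinj hRC ω with h | ⟨j, hj, hjω⟩
    · left
      have h1 : ρ (AutOrth.SemiSim.sg Q (u : V) w hu' huw') ∈ (phi ρ hW.nondeg).range :=
        ⟨AutOrth.SemiSim.sg (Q.comp W.subtype) u w hu huw, by rw [phi_apply, extE_sg hW.nondeg hu huw hu' huw']⟩
      exact h h1
    · exact Or.inr ⟨⟨j, hj⟩, hjω⟩

end boxA

end Cfsg.Agent.H188.RC
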